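import Cfsg.Agent.J3O.Def
import Cfsg.Agent.Grp.Cores

/-! S3228: basic facts on `Y5`, `Lp`, `n5`, `K5`. -/

set_option autoImplicit false
set_option linter.unusedSectionVars false

namespace Cfsg.Agent.J3O

open Subgroup

variable {G : Type*} [Group G] [Finite G]

/-- the subgroup generated by the elements of order `p` -/
def Lp (p : ℕ) (H : Subgroup G) : Subgroup G := closure {g | g ∈ H ∧ orderOf g = p}

theorem L5_def (H : Subgroup G) : L5 H = Lp 5 H := rfl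

theorem H0.nsq (h : H0 G) {p : ℕ} (hp : p = 5 ∨ p = 17 ∨ p = 19) : ¬ p ^ 2 ∣ Nat.card G := by
  rw [h.card]
  rcases hp with rfl | rfl | rfl <;> norm_num

theorem Y5_le (H : Subgroup G) : Y5 H ≤ H := by
  exact map_subtype_le _

/-- `pPrimeCore` is characteristic -/
theorem NN_le_NN_Y5 (H : Subgroup G) : NN H ≤ NN (Y5 H) := by
  exact Grp.normalizer_le_normalizer_map_of_characteristic H _

theorem le_NN_Y5 (H : Subgroup G) : H ≤ NN (Y5 H) := by
  exact le_normalizer.trans (NN_le_NN_Y5 H)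

/-- `Grp.pPrimeCore_coprime` -/
theorem not_dvd_Y5 (H : Subgroup G) : ¬ 5 ∣ Nat.card (Y5 H) := by
  have : Fact (Nat.Prime 5) := ⟨Nat.prime_five⟩
  rw [Y5, card_subtype]
  exact Grp.not_dvd_card_pPrimeCore 5 H

/-- `Grp.le_pPrimeCore` for `Y.subgroupOf H` -/
theorem le_Y5 {H Y : Subgroup G} (h1 : Y ≤ H) (h2 : H ≤ NN Y) (h3 : ¬ 5 ∣ Nat.card Y) :
    Y ≤ Y5 H := by
  rw [← map_subgroupOf_eq_of_le h1]
  refine map_mono (Grp.le_pPrimeCore ((normal_subgroupOf_iff_le_normalizer h1).2 h2) ?_)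
  rw [Nat.card_congr (subgroupOfEquivOfLe h1).toEquiv]
  exact (Nat.prime_five.coprime_iff_not_dvd.2 h3).symm

theorem bas_NX {g n : G} (h : n * g * n⁻¹ ∈ zpowers g) : n ∈ NX g :=
  mem_normalizer_fintype (by
    rintro _ ⟨k, rfl⟩
    have := zpow_mem h k
    rwa [conj_zpow] at this)

theorem bas_C1 (g : G) : C1 g = CC (zpowers g) := by
  rw [zpowers_eq_closure, CC, centralizer_closure]

theorem bas_idx {N M H : Subgroup G} (h : M ≤ H) :
    N.relIndex H ≤ N.relIndex M ↔ ∀ g ∈ H, ∃ m ∈ M, m⁻¹ * g ∈ N := by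
  let f := quotientSubgroupOfEmbeddingOfLE N h
  refine ⟨fun h1 g hg => ?_, fun h1 => Nat.card_le_card_of_surjective f fun q => ?_⟩
  · obtain ⟨q, hq⟩ := ((Nat.bijective_iff_injective_and_card f).2 ⟨f.injective, le_antisymm
      (Nat.card_le_card_of_injective f f.injective) h1⟩).2 (QuotientGroup.mk ⟨g, hg⟩)
    obtain ⟨m, rfl⟩ := QuotientGroup.mk_surjective q
    have := QuotientGroup.eq.1 ((quotientSubgroupOfEmbeddingOfLE_apply_mk N h m).symm.trans hq)
    exact ⟨m, m.2, this⟩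
  · obtain ⟨g, rfl⟩ := QuotientGroup.mk_surjective q
    obtain ⟨m, hm, h2⟩ := h1 g g.2
    exact ⟨QuotientGroup.mk ⟨m, hm⟩, (quotientSubgroupOfEmbeddingOfLE_apply_mk N h _).trans
      (QuotientGroup.eq.2 h2)⟩

theorem bas_ord (l y : G) : orderOf (l * y * l⁻¹) = orderOf y :=
  (MulAut.conj l).orderOf_eq y

theorem bas_gen {x w : G} (h : w ∈ zpowers x) (ho : orderOf w = orderOf x) : zpowers w = zpowers x :=
  eq_of_le_of_card_ge (zpowers_le.2 h) (by rw [Nat.card_zpowers, Nat.card_zpowers, ho])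

theorem C1_le_NX (g : G) : C1 g ≤ NX g := by
  rw [bas_C1]
  exact centralizer_le_normalizer _

theorem NX_le_NN_C1 (g : G) : NX g ≤ NN (C1 g) := by
  rw [bas_C1]
  refine fun n hn => mem_normalizer_fintype fun c hc => mem_centralizer_iff.2 fun u hu => ?_
  have := mem_centralizer_iff.1 hc _ ((mem_normalizer_iff''.1 hn u).1 hu)
  calc u * (n * c * n⁻¹) = n * (n⁻¹ * u * n * c) * n⁻¹ := by group
    _ = n * c * n⁻¹ * u := by rw [this]; group

theorem NX_le_NN_K5 (x : G) : NX x ≤ NN (K5 x) := by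
  exact (NX_le_NN_C1 x).trans (NN_le_NN_Y5 _)

theorem card_C1_conj {a b : G} (h : IsConj a b) : Nat.card (C1 a) = Nat.card (C1 b) := by
  obtain ⟨c, rfl⟩ := isConj_iff.1 h
  refine Nat.card_congr ((MulAut.conj c).toEquiv.subtypeEquiv fun u => ?_)
  rw [mem_centralizer_singleton_iff, mem_centralizer_singleton_iff]
  exact (Commute.conj_iff c).symm

theorem card_eq_n5 (x : G) (H : Subgroup G) : Nat.card H = n5 x H * Nat.card ↥(H ⊓ NX x) := by
  rw [← Nat.card_congr (subgroupOfEquivOfLe (inf_le_left : H ⊓ NX x ≤ H)).toEquiv, inf_subgroupOf_left]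
  exact ((NX x).subgroupOf H).index_mul_card.symm

section

variable {p : ℕ}

theorem Lp_le (H : Subgroup G) : Lp p H ≤ H := by
  exact (closure_le _).2 fun _ h => h.1

theorem mem_Lp {H : Subgroup G} {g : G} (hg : g ∈ H) (ho : orderOf g = p) : g ∈ Lp p H := by
  exact subset_closure ⟨hg, ho⟩

theorem Lp_le_of {H M : Subgroup G} (h : ∀ g ∈ H, orderOf g = p → g ∈ M) : Lp p H ≤ M := by
  exact (closure_le _).2 fun g k => h g k.1 k.2

theorem Lp_le_Lp {H M : Subgroup G} (h : Lp p H ≤ M) : Lp p H ≤ Lp p M := by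
  exact Lp_le_of fun g hg ho => mem_Lp (h (mem_Lp hg ho)) ho

theorem NN_le_NN_Lp (H : Subgroup G) : NN H ≤ NN (Lp p H) := by
  refine fun n hn => mem_normalizer_fintype fun c hc => ?_
  exact Lp_le_of (M := (Lp p H).comap (MulAut.conj n).toMonoidHom) (fun g hg ho =>
    mem_Lp ((mem_normalizer_iff.1 hn g).1 hg) ((bas_ord n g).trans ho)) hc

theorem Lp_conj (H : Subgroup G) (g : G) :
    Lp p (H.map (MulAut.conj g).toMonoidHom) = (Lp p H).map (MulAut.conj g).toMonoidHom := by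
  rw [Lp, Lp, MonoidHom.map_closure]
  congr 1
  ext u
  exact ⟨fun ⟨⟨v, hv, e⟩, ho⟩ => ⟨v, ⟨hv, (bas_ord g v).symm.trans (e ▸ ho :)⟩, e⟩,
    fun ⟨v, hv, e⟩ => ⟨⟨v, hv.1, e⟩, e ▸ (bas_ord g v).trans hv.2⟩⟩

variable [Fact p.Prime] (hN : ¬ p ^ 2 ∣ Nat.card G) {x : G} (hx : orderOf x = p)
include hN hx

theorem bas_syl {H : Subgroup G} (hH : x ∈ H) :
    ∃ P : Sylow p H, (P : Subgroup H) = (zpowers x).subgroupOf H := by
  have h1 : Nat.card ((zpowers x).subgroupOf H) = p := by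
    rw [Nat.card_congr (subgroupOfEquivOfLe (zpowers_le.2 hH)).toEquiv, Nat.card_zpowers, hx]
  refine ⟨(IsPGroup.of_card (n := 1) (h1.trans (pow_one p).symm)).toSylow fun h => hN ?_, rfl⟩
  refine dvd_trans ?_ (card_subgroup_dvd_card H)
  rw [← ((zpowers x).subgroupOf H).index_mul_card, h1, sq]
  exact Nat.mul_dvd_mul_right h p

theorem bas_conj {H : Subgroup G} (hH : x ∈ H) {y : G} (hy : y ∈ H) (ho : orderOf y = p) :
    ∃ l ∈ H, l * y * l⁻¹ ∈ zpowers x := by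
  obtain ⟨P, hP⟩ := bas_syl hN hx hH
  obtain ⟨Q, hQ⟩ := bas_syl hN ho hy
  obtain ⟨g, rfl⟩ := MulAction.exists_smul_eq H Q P
  have : MulAut.conj g • (⟨y, hy⟩ : H) ∈ ((g • Q : Sylow p H) : Subgroup H) :=
    smul_mem_pointwise_smul _ _ _ (hQ ▸ mem_zpowers y)
  rw [hP] at this
  exact ⟨g, g.2, this⟩

/-- `zpowers x` is a Sylow subgroup of `H` (`ModSl2.exists_sylow_eq`), `Sylow.card_eq_index_normalizer` -/
theorem n5_eq_card {H : Subgroup G} (hH : x ∈ H) : n5 x H = Nat.card (Sylow p H) := by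
  obtain ⟨P, hP⟩ := bas_syl hN hx hH
  rw [P.card_eq_index_normalizer, n5, relIndex, subgroupOf_normalizer_eq (zpowers_le.2 hH), ← hP]
  rfl

theorem n5_mod {H : Subgroup G} (hH : x ∈ H) : n5 x H % p = 1 := by
  rw [n5_eq_card hN hx hH, show Nat.card (Sylow p H) % p = 1 % p from card_sylow_modEq_one p H,
    Nat.mod_eq_of_lt (Fact.out : p.Prime).one_lt]

/-- Sylow's theorem in `Lp p H` -/
theorem conj_Lp {H : Subgroup G} (hH : x ∈ H) {y : G} (hy : y ∈ H) (ho : orderOf y = p) :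
    ∃ l ∈ Lp p H, l * y * l⁻¹ ∈ zpowers x := by
  exact bas_conj hN hx (mem_Lp hH hx) (mem_Lp hy ho) ho

/-- Frattini: `g x g⁻¹ ∈ Lp p H`, use `conj_Lp` -/
theorem frattini {H : Subgroup G} (hH : x ∈ H) {g : G} (hg : g ∈ NN (Lp p H)) :
    ∃ l ∈ Lp p H, ∃ n ∈ NX x, g = l * n := by
  obtain ⟨l, hl, h⟩ := bas_conj hN hx (mem_Lp hH hx) ((mem_normalizer_iff.1 hg x).1 (mem_Lp hH hx))
    ((bas_ord g x).trans hx)
  exact ⟨l⁻¹, inv_mem hl, l * g, bas_NX (by simpa only [mul_inv_rev, mul_assoc] using h), by group⟩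

theorem le_of_frattini {H M : Subgroup G} (hH : x ∈ H) (h1 : Lp p H ≤ M) (h2 : H ⊓ NX x ≤ M) :
    H ≤ M := by
  intro g hg
  obtain ⟨l, hl, n, hn, rfl⟩ := frattini hN hx hH (NN_le_NN_Lp H (le_normalizer hg))
  exact mul_mem (h1 hl) (h2 ⟨(mul_mem_cancel_left (Lp_le H hl)).1 hg, hn⟩)

/-- `H = Lp p H * (H ⊓ NX x)`, so `M ⊓ NX x` has the same index in `M` -/
theorem n5_eq_of_le {H M : Subgroup G} (hH : x ∈ H) (h1 : Lp p H ≤ M) (h2 : M ≤ H) :
    n5 x M = n5 x H := by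
  refine le_antisymm (relIndex_le_of_le_right h2 index_ne_zero_of_finite) ((bas_idx h2).2 fun g hg => ?_)
  obtain ⟨l, hl, n, hn, rfl⟩ := frattini hN hx hH (NN_le_NN_Lp H (le_normalizer hg))
  exact ⟨l, h1 hl, by rwa [inv_mul_cancel_left]⟩

/-- The `H`-cosets of `NX x` fill `M`: `M = H * (M ⊓ NX x)`, so every element of order `p` of `M`
(conjugate in `M` into `zpowers x`) lies in `H`. -/
theorem Lp_eq {H M : Subgroup G} (hH : x ∈ H) (hle : H ≤ M) (hn : n5 x M ≤ n5 x H) :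
    Lp p M = Lp p H := by
  refine le_antisymm (Lp_le_of fun y hy ho => mem_Lp ?_ ho) (Lp_le_Lp ((Lp_le H).trans hle))
  obtain ⟨l, hl, h⟩ := bas_conj hN hx (hle hH) hy ho
  obtain ⟨m, hm, h1⟩ := (bas_idx hle).1 hn _ (inv_mem hl)
  have := mul_mem (mul_mem hm (zpowers_le.2 hH ((mem_normalizer_iff.1 h1 _).1 h))) (inv_mem hm)
  rwa [show m * (m⁻¹ * l⁻¹ * (l * y * l⁻¹) * (m⁻¹ * l⁻¹)⁻¹) * m⁻¹ = y by group] at this

/-- every element of order `p` of `H` is conjugate in `H` into `zpowers x` -/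
theorem Lp_le_CC {H Y : Subgroup G} (hH : x ∈ H) (h1 : H ≤ NN Y) (h2 : Y ≤ C1 x) :
    Lp p H ≤ CC Y := by
  refine Lp_le_of fun y hy ho => mem_centralizer_iff.2 fun u hu => ?_
  obtain ⟨l, hl, h⟩ := bas_conj hN hx hH hy ho
  have := mem_centralizer_iff.1 ((bas_C1 x).le (h2 ((mem_normalizer_iff.1 (h1 hl) u).1 hu))) _ h
  calc u * y = l⁻¹ * (l * u * l⁻¹ * (l * y * l⁻¹)) * l := by group
    _ = y * u := by rw [← this]; group

/-- a normal subgroup of order divisible by `p` contains `x` -/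
theorem mem_of_dvd {H J : Subgroup G} (hH : x ∈ H) (h0 : J ≤ H) (h1 : H ≤ NN J)
    (h2 : p ∣ Nat.card J) : x ∈ J := by
  obtain ⟨y, hy⟩ := exists_prime_orderOf_dvd_card' p h2
  rw [← orderOf_coe] at hy
  obtain ⟨l, hl, h⟩ := bas_conj hN hx hH (h0 y.2) hy
  exact zpowers_le.2 ((mem_normalizer_iff.1 (h1 hl) _).1 y.2)
    ((bas_gen h ((bas_ord l y).trans (hy.trans hx.symm))).ge (mem_zpowers x))

theorem data_eq {y : G} (hy : orderOf y = p) :
    Nat.card (C1 y) = Nat.card (C1 x) ∧ Nat.card (NX y) = Nat.card (NX x) := by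
  obtain ⟨l, -, h⟩ := bas_conj hN hx (mem_top x) (mem_top y) hy
  have e := bas_gen h ((bas_ord l y).trans (hy.trans hx.symm))
  refine ⟨by rw [card_C1_conj (isConj_iff.2 ⟨l, rfl⟩), bas_C1, e, bas_C1], ?_⟩
  rw [NX, NX, ← e, ← card_map_of_injective (f := (MulAut.conj l).toMonoidHom) (MulAut.conj l).injective,
    map_equiv_normalizer_eq, MonoidHom.map_zpowers]
  rfl

/-- the fixed points of `x` on a subgroup it normalises (`IsPGroup.card_modEq_card_fixedPoints`) -/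
theorem card_modEq {D : Subgroup G} (h : x ∈ NN D) :
    Nat.card D ≡ Nat.card ↥(D ⊓ C1 x) [MOD p] := by
  let _ : MulAction (zpowers x) D :=
    MulAction.compHom D (D.normalizerMonoidHom.comp (inclusion (zpowers_le.2 h)))
  have hp : IsPGroup p (zpowers x) := IsPGroup.of_card (n := 1) (by rw [Nat.card_zpowers, hx, pow_one])
  have key : ∀ d : D, d ∈ MulAction.fixedPoints (zpowers x) D ↔ (d : G) ∈ C1 x := fun d => by
    rw [bas_C1, mem_centralizer_iff]
    exact ⟨fun k u hu => mul_inv_eq_iff_eq_mul.1 (congrArg Subtype.val (k ⟨u, hu⟩)),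
      fun k u => Subtype.ext (mul_inv_eq_iff_eq_mul.2 (k u u.2))⟩
  rw [← Nat.card_congr (subgroupOfEquivOfLe (inf_le_left : D ⊓ C1 x ≤ D)).toEquiv, inf_subgroupOf_left]
  exact (hp.card_modEq_card_fixedPoints D).trans (congrArg (· % p) (Nat.card_congr (Equiv.subtypeEquivRight key)))

end

theorem exists_comm {p : ℕ} [Fact p.Prime] {t : G} (h : p ∣ Nat.card (C1 t)) :
    ∃ y, orderOf y = p ∧ Commute y t := by
  obtain ⟨y, hy⟩ := exists_prime_orderOf_dvd_card' p h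
  exact ⟨y, (orderOf_coe y).trans hy, mem_centralizer_singleton_iff.1 y.2⟩

variable (hN : ¬ 5 ^ 2 ∣ Nat.card G) {x : G} (hx : orderOf x = 5)
include hN hx

theorem bas_K : (∀ k : C1 x, ¬ 5 ∣ orderOf k → k ∈ pPrimeCore 5 (C1 x)) ∧
    Nat.card (C1 x) = 5 * Nat.card (pPrimeCore 5 (C1 x)) := by
  have : Fact (Nat.Prime 5) := ⟨Nat.prime_five⟩
  have m : x ∈ C1 x := mem_centralizer_singleton_iff.2 rfl
  obtain ⟨P, hP⟩ := bas_syl hN hx m
  have h1 : Nat.card (P : Subgroup (C1 x)) = 5 := by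
    rw [hP, Nat.card_congr (subgroupOfEquivOfLe (zpowers_le.2 m)).toEquiv, Nat.card_zpowers, hx]
  have h2 : normalizer ((P : Subgroup (C1 x)) : Set (C1 x)) ≤ centralizer ((P : Subgroup (C1 x)) : Set (C1 x)) :=
    fun a _ => mem_centralizer_iff.2 fun b hb => Subtype.ext
      (mem_centralizer_iff.1 ((bas_C1 x).le a.2) b (by rw [hP] at hb; exact hb))
  have h3 : ∀ k : C1 x, ¬ 5 ∣ orderOf k → k ∈ (MonoidHom.transferSylow P h2).ker := fun k hk =>
    orderOf_eq_one_iff.1 (((Nat.dvd_prime Nat.prime_five).1 ((orderOf_dvd_natCard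
      (MonoidHom.transferSylow P h2 k)).trans h1.dvd)).resolve_right fun e => hk (e ▸ orderOf_map_dvd _ k))
  have h4 : (MonoidHom.transferSylow P h2).ker = pPrimeCore 5 (C1 x) := le_antisymm
    (Grp.le_pPrimeCore inferInstance ((Nat.prime_five.coprime_iff_not_dvd.2
      (MonoidHom.not_dvd_card_ker_transferSylow P h2)).symm))
    fun k hk => h3 k fun h => Grp.not_dvd_card_pPrimeCore 5 (C1 x) (h.trans (orderOf_dvd_natCard _ hk))
  exact ⟨h4 ▸ h3, by rw [← (MonoidHom.ker_transferSylow_isComplement' P h2).card_mul_card, h1, h4, mul_comm]⟩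

/-- `zpowers x` is a central Sylow subgroup of `C1 x`; Burnside's normal complement
(`MonoidHom.ker_transferSylow_isComplement'`) is `K5 x` and contains all 5'-elements. -/
theorem mem_K5 {k : G} : k ∈ K5 x ↔ Commute k x ∧ ¬ 5 ∣ orderOf k := by
  refine ⟨fun h => ⟨mem_centralizer_singleton_iff.1 (Y5_le _ h), fun h1 =>
    not_dvd_Y5 _ (h1.trans (orderOf_dvd_natCard _ h))⟩, fun h => ?_⟩
  exact ⟨⟨k, mem_centralizer_singleton_iff.2 h.1⟩, (bas_K hN hx).1 _ (by rw [← orderOf_coe]; exact h.2), rfl⟩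

theorem card_C1 : Nat.card (C1 x) = 5 * Nat.card (K5 x) := by
  rw [K5, Y5, card_subtype]
  exact (bas_K hN hx).2

theorem le_K5 {Y : Subgroup G} (h1 : Y ≤ C1 x) (h2 : ¬ 5 ∣ Nat.card Y) : Y ≤ K5 x := by
  exact fun k hk => (mem_K5 hN hx).2 ⟨mem_centralizer_singleton_iff.1 (h1 hk),
    fun h => h2 (h.trans (orderOf_dvd_natCard _ hk))⟩

end Cfsg.Agent.J3O
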