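import Mathlib
import Cfsg.Prelude.Def_Solvable

/-! S3228 (simple groups of order 50232960): notation. -/

set_option autoImplicit false

namespace Cfsg.Agent.J3O

open Subgroup

variable {G : Type*} [Group G]

/-- the centraliser of an element -/
abbrev C1 (g : G) : Subgroup G := centralizer ({g} : Set G)

/-- the normaliser of a cyclic subgroup -/
abbrev NX (g : G) : Subgroup G := normalizer ((zpowers g : Subgroup G) : Set G)

abbrev NN (D : Subgroup G) : Subgroup G := normalizer (D : Set G)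

abbrev CC (D : Subgroup G) : Subgroup G := centralizer (D : Set G)

/-- the standing hypothesis; `50232960 = 2^7 * 3^5 * 5 * 17 * 19` -/
structure H0 (G : Type*) [Group G] : Prop where
  simple : IsSimpleGroup G
  nab : ¬ IsMulCommutative G
  card : Nat.card G = 50232960

/-- `O_{5'}(H)` -/
def Y5 (H : Subgroup G) : Subgroup G := (Cfsg.pPrimeCore 5 H).map H.subtype

/-- `O^{5'}(H)` -/
def L5 (H : Subgroup G) : Subgroup G := closure {g | g ∈ H ∧ orderOf g = 5}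

/-- the number of Sylow 5-subgroups of `H` if `x ∈ H` has order 5 -/
noncomputable def n5 (x : G) (H : Subgroup G) : ℕ := (NX x).relIndex H

/-- the 5-complement of `C(x)` -/
def K5 (x : G) : Subgroup G := Y5 (C1 x)

/-- The structure of a subgroup `H` of order dividing `155520 = 2^7 * 3^5 * 5` containing `x` of
order 5: `(L5 H ⊔ Y5 H) / Y5 H` is `Z5`, `A5`, `A6` or `PSp4(3)`, with `τ` Sylow 5-subgroups. -/
structure SL (x : G) (H : Subgroup G) (τ a b : ℕ) : Prop where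
  tau : τ = 1 ∨ τ = 6 ∨ τ = 36 ∨ τ = 1296
  num : n5 x H = τ * (16 ^ a * 81 ^ b)
  card : Nat.card (Y5 H) = Nat.card ↥(Y5 H ⊓ C1 x) * (16 ^ a * 81 ^ b)
  cent : ∀ g ∈ L5 H ⊔ Y5 H, ∀ y ∈ H, orderOf y = 5 → Commute g y → ¬ 5 ∣ orderOf g → g ∈ Y5 H
  big : τ = 1296 → Nat.card ↥(L5 H ⊔ Y5 H) = 25920 * Nat.card (Y5 H)
  small : τ = 1 ∨ τ = 6 → K5 x ⊓ H ≤ Y5 H
  three : τ = 36 → ∀ g ∈ K5 x ⊓ H, ∀ k, g ^ 3 ^ k = 1 → g ∈ Y5 H
  a5 : τ = 6 → ∃ φ : ↥(L5 H ⊔ Y5 H) →* alternatingGroup (Fin 5),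
    Function.Surjective φ ∧ ∀ g, φ g = 1 ↔ (g : G) ∈ Y5 H
  a6 : τ = 36 → ∃ φ : ↥(L5 H ⊔ Y5 H) →* alternatingGroup (Fin 6),
    Function.Surjective φ ∧ ∀ g, φ g = 1 ↔ (g : G) ∈ Y5 H

/-- The local facts coming from the primes 17 and 19. -/
structure Loc (G : Type*) [Group G] : Prop where
  two : ∀ D : Subgroup G, IsPGroup 2 D → D ≠ ⊥ → Nat.card (NN D) ∣ 155520
  three : ∀ D : Subgroup G, IsPGroup 3 D → ∀ d ∈ D, d ≠ 1 → 5 ∣ Nat.card (C1 d) →
    Nat.card (NN D) ∣ 155520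

end Cfsg.Agent.J3O
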