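import Cfsg.Agent.J3O.Bas
import Cfsg.Agent.Math.Ext5
import Cfsg.Agent.Math.Ext4
import Cfsg.Agent.Math.Kit3
import Cfsg.Agent.Char.RealClifford

/-! S3228: Frobenius-Schur indicators in the principal 5-block. -/

set_option autoImplicit false
set_option linter.unusedSectionVars false

namespace Cfsg.Agent.J3O

open Subgroup

variable {G : Type*} [Group G] [Finite G]

open Cfsg.Agent.Math Cfsg.Agent.Char Cfsg.Agent.Char.SelfC Cfsg.Agent.Char.Euclid

variable [Fact (Nat.Prime 5)] {x : G}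

theorem fs_even [Fintype G] {χ : IrrCharacter G} (hr : ∀ g, (χ.1 g).im = 0) (h1 : fsInd χ.1 ≠ 1)
    {K : Type*} [Group K] [Fintype K] (f : K →* G) : ∃ n : ℕ, ∑ k, χ.1 (f k) = Nat.card K * (2 * n) := by
  obtain ⟨n, hn⟩ := exists_mult (χ.2.isCharacter.comp f)
  rcases Nat.even_or_odd' n with ⟨m, rfl | rfl⟩
  · exact ⟨m, by rw [hn]; push_cast; rfl⟩
  · refine (h1 ((fsInd_eq_of_odd_inner χ.2 isIrrCharacter_one hr (fun _ => Complex.one_im) f
      (odd_two_mul_add_one m) ?_).trans fsInd_one)).elim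
    rw [classInner_one_right, hn, inv_mul_cancel_left₀ (Nat.cast_ne_zero.2 Nat.card_pos.ne')]

theorem fs_ite {U Z : Subgroup G} (le : Z ≤ U) [Fintype U] [Fintype Z] (f : G → ℂ)
    [DecidablePred (· ∈ Z)] : ∑ v : U, (if (v : G) ∈ Z then f v else 0) = ∑ v : Z, f v := by
  classical
  rw [← Finset.sum_filter]
  refine (Finset.sum_bij (fun v _ => inclusion le v) (fun v _ => by simp) (fun a _ b _ e =>
    inclusion_injective le e) (fun v hv => ⟨⟨v, (Finset.mem_filter.1 hv).2⟩, Finset.mem_univ _, rfl⟩)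
    fun _ _ => rfl).symm

/-- an element normalising but not centralising `⟨x⟩` is conjugate to its whole coset -/
theorem fs_coset (hx : orderOf x = 5) [Fintype (zpowers x)] {v : G} (hv : v ∈ NX x) (nv : v ∉ C1 x)
    {f : G → ℂ} (hf : IsClassFunction G f) : ∑ z : zpowers x, f (z * v) = 5 * f v := by
  let m : zpowers x → zpowers x := fun z =>
    ⟨z * (v * z⁻¹ * v⁻¹), mul_mem z.2 ((mem_normalizer_iff.1 hv _).1 (inv_mem z.2))⟩
  have inj : Function.Injective m := fun a b e => by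
    have e' : (a : G) * (v * (a : G)⁻¹ * v⁻¹) = b * (v * (b : G)⁻¹ * v⁻¹) := congrArg Subtype.val e
    by_contra ne
    refine nv ((cent_eq hx (b⁻¹ * a).2 fun k => ne (inv_mul_eq_one.1 (Subtype.ext k)).symm).le
      (mem_centralizer_singleton_iff.2 ?_))
    rw [coe_mul, coe_inv]
    calc v * ((b : G)⁻¹ * a) = (b : G)⁻¹ * (b * (v * (b : G)⁻¹ * v⁻¹)) * v * a := by group
      _ = _ := by rw [← e']; group
  rw [← (Finite.injective_iff_bijective.1 inj).sum_comp]
  have : ∀ z : zpowers x, f (m z * v) = f v := fun z => by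
    rw [← hf v z]; congr 1; simp [m, mul_assoc]
  simp only [this, Finset.sum_const, Finset.card_univ, nsmul_eq_mul]
  rw [← Nat.card_eq_fintype_card, Nat.card_zpowers, hx, Nat.cast_ofNat]

theorem fs_pw {g : G} (h : g * x * g⁻¹ = x ^ 2) (j : ℕ) : g ^ j * x * (g ^ j)⁻¹ = x ^ 2 ^ j := by
  induction j with
  | zero => simp
  | succ j ih =>
    rw [pow_succ' 2, pow_mul, ← h, conj_pow, ← ih, pow_succ']
    group

theorem fs_four {j : ℕ} (h : 2 ^ j % 5 = 1) : 4 ∣ j := by
  rw [← Nat.div_add_mod j 4, pow_add, pow_mul, Nat.mul_mod, Nat.pow_mod] at h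
  have : j % 4 < 4 := Nat.mod_lt _ (by norm_num)
  refine Nat.dvd_of_mod_eq_zero ?_
  interval_cases j % 4 <;> simp at h ⊢

/-- Suppose `fsInd χ ≠ 1`.  Then (`fsInd_eq_of_odd_inner` with `ψ = irrOne`, `Math.exists_mult`) for every subgroup
`U` the natural number `k U` with `∑ y : U, χ y = |U| * k U` is even.  As `e = 4` there is `u ∈ NX x` with
`u x u⁻¹ = x²` of order prime to 5 (replace `u` by `u ^ 5 ^ j`).  `U = zpowers u`, `Z = U ⊓ C1 x` of index 4,
`H = zpowers x ⊔ U` of order `5 |U|`, its elements are `x^i v` uniquely.  For `v ∈ U \ Z`, `x^i v` is conjugate to `v`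
under `zpowers x`; for `v ∈ Z`, `i ≠ 0`, `χ (x^i v) = sg` (`val_ext`, `sv_mod`).  So
`20 |Z| k H = |Z| k Z + 4 |Z| sg + 5 (4 |Z| k U - |Z| k Z)`, i.e. `sg = 5 k H - 5 k U + k Z` is even, but `sg = ±1`. -/
theorem fs_pos [Fintype G] (D : BD 5 x) (he : D.e = 4) {χ : IrrCharacter G} (hχ : χ ∈ D.ext)
    (hr : ∀ g, (χ.1 g).im = 0) : fsInd χ.1 = 1 := by
  classical
  by_contra h1
  have hx := D.ox
  have he' : D.e + 1 = 5 := by omega
  have x5 : x ^ 5 = 1 := hx ▸ pow_orderOf_eq_one x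
  obtain ⟨g, hg⟩ := isConj_iff.1 (D.isConj_of_mem he' (npow_mem_zpowers x 2) fun k => by
    have := orderOf_dvd_of_pow_eq_one k
    rw [hx] at this; omega)
  obtain ⟨j, hj⟩ := PLocal.Amb.exists_pow_coprime (p := 5) g
  have hu : g ^ 5 ^ j * x * (g ^ 5 ^ j)⁻¹ = x ^ 2 := by
    clear hj
    induction j with
    | zero => simpa using hg
    | succ j ih =>
      rw [pow_succ 5 j, pow_mul, fs_pw ih, show x ^ 2 ^ 5 = (x ^ 5) ^ 6 * x ^ 2 by group, x5, one_pow, one_mul]
  generalize g ^ 5 ^ j = u at hu hj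
  have four : ∀ i, u ^ i ∈ C1 x → 4 ∣ i := fun i hi => fs_four (by
    have := fs_pw hu i
    rw [mem_centralizer_singleton_iff.1 hi, mul_inv_cancel_right, eq_comm, ← pow_one x, ← pow_mul, one_mul,
      pow_eq_pow_iff_modEq, hx] at this
    exact this)
  have ZC : zpowers (u ^ 4) ≤ C1 x := zpowers_le.2 (mem_centralizer_singleton_iff.2 (by
    rw [← mul_inv_eq_iff_eq_mul, fs_pw hu, show x ^ 2 ^ 4 = (x ^ 5) ^ 3 * x by group, x5, one_pow, one_mul]))
  have ZU : zpowers (u ^ 4) ≤ zpowers u := zpowers_le.2 (npow_mem_zpowers u 4)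
  have UN : zpowers u ≤ NX x := zpowers_le.2 (mem_norm hu)
  have d4 := four (orderOf u) (by rw [pow_orderOf_eq_one]; exact one_mem _)
  have cU : Nat.card (zpowers u) = 4 * Nat.card (zpowers (u ^ 4)) := by
    rw [Nat.card_zpowers, Nat.card_zpowers, orderOf_pow_of_dvd (by norm_num) d4, Nat.mul_div_cancel' d4]
  let φ : zpowers u →* MulAut (zpowers x) := (zpowers x).normalizerMonoidHom.comp (inclusion UN)
  have : Fintype (zpowers x ⋊[φ] zpowers u) := Fintype.ofEquiv _ SemidirectProduct.equivProd.symm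
  obtain ⟨a, ha⟩ := fs_even hr h1 (SemidirectProduct.lift (φ := φ) (zpowers x).subtype (zpowers u).subtype
    fun v => MonoidHom.ext fun z => rfl)
  obtain ⟨b, hb⟩ := fs_even hr h1 (zpowers u).subtype
  obtain ⟨c, hc⟩ := fs_even hr h1 (zpowers (u ^ 4)).subtype
  rw [← SemidirectProduct.equivProd.symm.sum_comp, Fintype.sum_prod_type_right, SemidirectProduct.card,
    Nat.card_zpowers x, hx] at ha
  change ∑ v : zpowers u, ∑ z : zpowers x, χ.1 (z * v) = _ at ha
  have key : ∀ v : zpowers u, ∑ z : zpowers x, χ.1 (z * v) =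
      5 * χ.1 v + if (v : G) ∈ zpowers (u ^ 4) then 4 * (D.sg χ - χ.1 v) else 0 := fun v => by
    split_ifs with hv
    · rw [sum_subgroup_eq (f := fun z => χ.1 (z * v)) (c := D.sg χ) fun z hz z1 =>
        D.val_ext hχ (D.sv_mod he' hχ) hz z1 (ZC hv) fun k => absurd
          (Nat.Coprime.coprime_dvd_left (k.trans (orderOf_dvd_of_mem_zpowers v.2)) hj) (by norm_num),
        Nat.card_zpowers, hx, one_mul]
      push_cast; ring
    · rw [add_zero]
      refine fs_coset hx (UN v.2) (fun k => hv ?_) χ.2.isClassFunction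
      obtain ⟨i, hi⟩ := mem_powers_iff_mem_zpowers.2 v.2
      obtain ⟨l, rfl⟩ := four i (by rwa [← hi] at k)
      rw [← hi]
      change u ^ (4 * l) ∈ _
      rw [pow_mul]
      exact npow_mem_zpowers _ l
  simp only [key, Finset.sum_add_distrib, ← Finset.mul_sum] at ha
  rw [fs_ite ZU fun v => 4 * (D.sg χ - χ.1 v), ← Finset.mul_sum, Finset.sum_sub_distrib, Finset.sum_const,
    Finset.card_univ, ← Nat.card_eq_fintype_card, nsmul_eq_mul] at ha
  simp only [coe_subtype] at hb hc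
  rw [hb, hc, cU] at ha
  have e : (D.sg χ : ℂ) = 2 * (5 * a - 5 * b + c) := mul_left_cancel₀
    (Nat.cast_ne_zero.2 (Nat.card_pos (α := zpowers (u ^ 4))).ne') (by
      push_cast at ha
      linear_combination (1 / 4 : ℂ) * ha)
  have e' : D.sg χ = 2 * (5 * a - 5 * b + c) := by exact_mod_cast e
  rcases D.sg_sign χ with h | h <;> omega

/-- `∑ χ, fsInd χ * χ g = #{u | u² = g}` (`Char/FS`, used in `TrP.Four.fs`, `Math.fs_count`) and `D.sum_reg` with
`φ = fsInd` (`Y_eq`).  The pairs `(y, u)`, `y ∈ reg 5 x`, `u² = x y` correspond to `k ∈ reg 5 x` by `u = x³ k`,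
`y = k²`, so their number is `D.c`. -/
theorem fs_sum [Fintype G] (D : BD 5 x) (he : D.e = 4) :
    ∑ χ ∈ D.ext, (D.sg χ : ℂ) * fsInd χ.1 = 0 := by
  classical
  have hx := D.ox
  have x5 : x ^ 5 = 1 := hx ▸ pow_orderOf_eq_one x
  have h := D.sum_reg (fun χ => fsInd χ.1) fun θ hθ => by
    rw [D.Y_eq (by omega), Finset.mem_singleton] at hθ; rw [hθ]
  have h2 : ∀ g : G, ∑ χ : IrrCharacter G, fsInd χ.1 * (starRingEnd ℂ) (χ.1 g) =
      Nat.card {s : G // s * s = g} := fun g => by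
    rw [← Complex.conj_natCast, card_sqrt_eq_sum, map_sum]
    exact Finset.sum_congr rfl fun χ _ => by rw [map_mul, conj_fsInd χ.2]
  have h3 : ∑ y ∈ reg 5 x, Nat.card {s : G // s * s = x * y} = D.c := by
    rw [BD.c, Finset.card_eq_sum_card_fiberwise (f := fun k => k * k) (t := reg 5 x) fun k hk =>
      mem_reg.2 ⟨mul_mem (mem_reg.1 hk).1 (mem_reg.1 hk).1, fun d => (mem_reg.1 hk).2
        (d.trans (by change orderOf (k * k) ∣ _; rw [← pow_two]; exact orderOf_pow_dvd 2))⟩]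
    refine Finset.sum_congr rfl fun y hy => ?_
    obtain ⟨yC, y5⟩ := mem_reg.1 hy
    have cy : Commute y x := mem_centralizer_singleton_iff.1 yC
    rw [Nat.subtype_card (Finset.univ.filter fun s => s * s = x * y) (by simp)]
    have cs : ∀ s : G, s * s = x * y → Commute s x := fun s hs => by
      have e : (s * s) ^ orderOf y = x ^ orderOf y := by
        rw [hs, cy.symm.mul_pow, pow_orderOf_eq_one, mul_one]
      refine mem_centralizer_singleton_iff.1 (cent_eq hx (npow_mem_zpowers x (orderOf y))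
        (fun k => y5 (hx ▸ orderOf_dvd_of_pow_eq_one k)) ▸ mem_centralizer_singleton_iff.2 ?_)
      rw [← e]
      exact ((Commute.refl s).mul_right (Commute.refl s)).pow_right _
    have sq : ∀ s : G, Commute s x → ∀ i : ℕ, x ^ i * s * (x ^ i * s) = x ^ (2 * i) * (s * s) := fun s c i => by
      rw [mul_assoc, ← mul_assoc s, (c.pow_right i).eq, two_mul, pow_add]; group
    refine Finset.card_nbij' (fun s => x ^ 2 * s) (fun k => x ^ 3 * k) (fun s hs => ?_) (fun k hk => ?_)
      (fun s _ => ?_) fun k _ => ?_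
    · have hs' : s * s = x * y := by simpa using hs
      have e : x ^ 2 * s * (x ^ 2 * s) = y := by
        rw [sq s (cs s hs'), hs', ← mul_assoc, ← pow_succ, x5, one_mul]
      refine Finset.mem_coe.2 (Finset.mem_filter.2 ⟨mem_reg.2 ⟨mem_centralizer_singleton_iff.2
        (((Commute.refl x).pow_left 2).mul_left (cs s hs')), fun d => y5 ?_⟩, e⟩)
      have : orderOf (x ^ 2 * s) ∣ 2 * orderOf y := orderOf_dvd_of_pow_eq_one (by
        rw [pow_mul, pow_two, e, pow_orderOf_eq_one])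
      exact (Nat.Coprime.dvd_mul_left (by norm_num)).1 (d.trans this)
    · obtain ⟨hk1, hk2⟩ := Finset.mem_filter.1 (Finset.mem_coe.1 hk)
      refine Finset.mem_coe.2 (Finset.mem_filter.2 ⟨Finset.mem_univ _, ?_⟩)
      rw [sq k (mem_centralizer_singleton_iff.1 (mem_reg.1 hk1).1), hk2, pow_succ x 5, x5, one_mul]
    · simp only [← mul_assoc, ← pow_add, x5, one_mul]
    · simp only [← mul_assoc, ← pow_add, x5, one_mul]
  simp only [h2] at h
  rw [← Nat.cast_sum, h3] at h
  have h4 : fsInd (irrOne G).1 = 1 := fsInd_one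
  rw [h4] at h
  exact mul_left_cancel₀ (Nat.cast_ne_zero.2 D.c_pos.ne') (by linear_combination -h)

/-- `∑ y ∈ reg 5 x, χ (x y) = c * sg ≠ 0` is real, so the conjugate character is in the block too
(`sum_reg_out`). -/
theorem real_of_uniq (D : BD 5 x) (he : D.e = 4) {χ : IrrCharacter G} (hχ : χ ∈ D.ext)
    (hu : ∀ ψ ∈ D.ext, dg ψ = dg χ → ψ = χ) (h1 : dg χ ≠ 1) (g : G) : (χ.1 g).im = 0 := by
  have he' : D.e + 1 = 5 := by omega
  have d : dg (irrConj χ) = dg χ := charDegree_eq_of_one_eq (by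
    change (starRingEnd ℂ) (χ.1 1) = _
    rw [← dg_cast, map_natCast])
  have h2 : irrConj χ ∈ D.blk := by
    by_contra h
    rw [BD.mem_blk, not_or] at h
    have h1 := D.sum_reg_out h.1 h.2
    rw [Finset.sum_congr rfl (g := fun _ => (D.sg χ : ℂ)) fun y hy => by
      change (starRingEnd ℂ) (χ.1 _) = _
      rw [D.val_ext hχ (D.sv_mod he' hχ) (mem_zpowers x) (Grp.SelfCent.ne_one D.ox) (mem_reg.1 hy).1
        (mem_reg.1 hy).2, map_intCast], Finset.sum_const, nsmul_eq_mul, mul_eq_zero,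
      Nat.cast_eq_zero, Int.cast_eq_zero] at h1
    rcases h1 with h1 | h1
    · exact D.c_pos.ne' h1
    · rcases D.sg_sign χ with h | h <;> omega
  have := hu _ (D.ext_of_blk he' h2 (ne_one_of_dg (d ▸ h1))) d
  exact Complex.conj_eq_iff_im.1 (congrFun (congrArg Subtype.val this) g)

/-- `E.mem_Y`, `E.rat_Y` on 17-regular elements; a 17-singular element has order 17
(`orderOf_eq_of_dvd`) and is conjugate to its inverse (`exists_inverts`, Sylow). -/
theorem real76 [Fact (Nat.Prime 17)] {y : G} (E : BD 17 y) (hc : E.c = 1) (he : E.e = 8)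
    {χ : IrrCharacter G} (h : dg χ = 76) (g : G) : (χ.1 g).im = 0 := by
  by_cases hg : 17 ∣ orderOf g
  · obtain ⟨l, -, hl⟩ := bas_conj E.nsq E.ox (mem_top y) (mem_top g)
      (Grp.SelfCent.orderOf_eq_of_dvd E.ox (E.cent_of_c hc) hg)
    obtain ⟨t, -, -, ht⟩ := exists_inverts E.ox (by rw [E.card_C, hc]; norm_num)
      (by rw [E.card_N, hc, he]; norm_num)
    obtain ⟨k, hk⟩ := hl
    have e : t * (l * g * l⁻¹) * t⁻¹ = (l * g * l⁻¹)⁻¹ := by
      rw [← hk, ← conj_zpow, ht, inv_zpow]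
    have := χ.2.isClassFunction (l * g * l⁻¹) t
    rw [e, χ.2.map_inv, χ.2.isClassFunction] at this
    exact Complex.conj_eq_iff_im.1 this
  · obtain ⟨a, ha⟩ := E.rat_Y (E.mem_blk.2 (Or.inr (E.mem_Y hc (χ := χ) (by omega) (by omega) (by omega))))
      (by omega) (by omega) hg
    rw [ha, Complex.intCast_im]

/-- all four characters are real, so `fs_pos`, `fs_sum` give `∑ sg = 0`, but it is 2 (`sg_of_sv`) -/
theorem killA [Fact (Nat.Prime 17)] (D : BD 5 x) (he : D.e = 4) {y : G} (E : BD 17 y) (hc : E.c = 1)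
    (he' : E.e = 8) : D.xd ≠ ↑[(76 : ℤ), 76, 816, -969] := by
  classical
  intro h
  have := Fintype.ofFinite G
  have re : ∀ χ ∈ D.ext, ∀ g, (χ.1 g).im = 0 := fun χ hχ => by
    by_cases h76 : dg χ = 76
    · exact real76 E hc he' h76
    have m : D.sv χ ∈ D.xd := Multiset.mem_map_of_mem _ hχ
    have ct : (D.xd.map Int.natAbs).count (dg χ) = 1 ∧ dg χ ≠ 1 := by
      rw [h] at m ⊢
      rw [← D.natAbs_sv] at h76 ⊢
      simp only [Multiset.mem_coe, List.mem_cons, List.not_mem_nil, or_false] at m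
      rcases m with m | m | m | m <;> rw [m] at h76 ⊢
      exacts [absurd rfl h76, absurd rfl h76, by decide, by decide]
    refine real_of_uniq D he hχ (fun ψ h1 h2 => ?_) ct.2
    have c1 := ct.1
    rw [BD.xd, Multiset.map_map, Multiset.count_map] at c1
    exact Finset.card_le_one.1 (show (D.ext.filter fun ψ => dg χ = (D.sv ψ).natAbs).card = 1
      from c1).le _ (by simp [h1, h2, BD.natAbs_sv]) _ (by simp [hχ, BD.natAbs_sv])
  have s := fs_sum D he
  rw [Finset.sum_congr rfl fun χ hχ => by rw [fs_pos D he hχ (re χ hχ), mul_one], ← Int.cast_sum,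
    Int.cast_eq_zero] at s
  have s2 : (D.xd.map Int.sign).sum = ∑ χ ∈ D.ext, D.sg χ := by
    rw [BD.xd, Multiset.map_map]
    exact Finset.sum_congr rfl fun χ _ => D.sign_sv χ
  rw [h, s] at s2
  exact absurd s2 (by decide)

end Cfsg.Agent.J3O
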