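import Cfsg.Agent.J3O.N19

/-! S3228: the case `|C(y)| = 17 * 9`. -/

set_option autoImplicit false
set_option linter.unusedSectionVars false

namespace Cfsg.Agent.J3O

open Subgroup

variable {G : Type*} [Group G] [Finite G]

/-- the configuration of the case `|C(y)| = 153` -/
structure St17 (y : G) (A : Subgroup G) : Prop where
  oy : orderOf y = 17
  cA : Nat.card A = 9
  AC : A ≤ C1 y
  mem : ∀ d ∈ C1 y, orderOf d = 3 → d ∈ A
  NM : NX y ≤ NN A
  cM : Nat.card (NN A) = 44064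
  ti : ∀ g : G, ∀ d ∈ A, d ≠ 1 → g * d * g⁻¹ ∈ A → g ∈ NN A

theorem l17_cauchy {p : ℕ} [Fact p.Prime] {H : Subgroup G} (h : p ∣ Nat.card H) :
    ∃ x ∈ H, orderOf x = p := by
  obtain ⟨x, hx⟩ := exists_prime_orderOf_dvd_card' p h
  exact ⟨x, x.2, by rw [← hx]; exact (Subgroup.orderOf_coe x)⟩

theorem l17_le_of_card {H K : Subgroup G} (h : Nat.card ↥(H ⊓ K) = Nat.card H) : H ≤ K := by
  have : H ⊓ K = H := Subgroup.eq_of_le_of_card_ge inf_le_left h.ge
  exact inf_eq_left.mp this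

theorem l17_exp {q k a m : ℕ} (hq : q.Prime) (hm : ¬ q ∣ m) (h : q ^ k ∣ q ^ a * m) : k ≤ a := by
  have hc : Nat.Coprime (q ^ k) m := Nat.Coprime.pow_left _ ((Nat.Prime.coprime_iff_not_dvd hq).2 hm)
  exact (Nat.pow_dvd_pow_iff_le_right hq.one_lt).1 (hc.dvd_of_dvd_mul_right h)

theorem l17_pcard (h : H0 G) {q : ℕ} (hq : q = 2 ∨ q = 3) {D : Subgroup G} (hD : IsPGroup q D) :
    ∃ k, Nat.card D = q ^ k ∧ k ≤ 7 ∧ (q = 3 → k ≤ 5) := by
  have hd : Nat.card D ∣ 50232960 := h.card ▸ Subgroup.card_subgroup_dvd_card D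
  rcases hq with rfl | rfl
  · obtain ⟨k, hk⟩ := IsPGroup.iff_card.1 hD
    refine ⟨k, hk, ?_, by omega⟩
    rw [hk] at hd
    exact l17_exp (a := 7) (m := 392445) Nat.prime_two (by norm_num) (by simpa using hd)
  · have : Fact (Nat.Prime 3) := ⟨Nat.prime_three⟩
    obtain ⟨k, hk⟩ := IsPGroup.iff_card.1 hD
    rw [hk] at hd
    have := l17_exp (a := 5) (m := 206720) Nat.prime_three (by norm_num) (by simpa using hd)
    exact ⟨k, hk, by omega, fun _ => this⟩

theorem l17_pos {D : Subgroup G} (h1 : D ≠ ⊥) {q k : ℕ} (hk : Nat.card D = q ^ k) : k ≠ 0 := by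
  rintro rfl
  exact h1 (Subgroup.card_eq_one.1 (by simpa using hk))

theorem l17_inf_one {D C : Subgroup G} (hc : Nat.Coprime (Nat.card D) (Nat.card C)) :
    Nat.card ↥(D ⊓ C) = 1 :=
  Nat.eq_one_of_dvd_coprimes hc (Subgroup.card_dvd_of_le inf_le_left)
    (Subgroup.card_dvd_of_le inf_le_right)

theorem l17_dvd {n : ℕ} (h : n ∣ 50232960) (h19 : ¬ 19 ∣ n) : n ∣ 17 * 155520 := by
  have hc : Nat.Coprime n 19 :=
    ((Nat.Prime.coprime_iff_not_dvd (by norm_num : Nat.Prime 19)).2 h19).symm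
  exact hc.dvd_of_dvd_mul_left (by simpa using h)

theorem l17_dvd' {n : ℕ} (h : n ∣ 17 * 155520) (h17 : ¬ 17 ∣ n) : n ∣ 155520 := by
  have hc : Nat.Coprime n 17 :=
    ((Nat.Prime.coprime_iff_not_dvd (by norm_num : Nat.Prime 17)).2 h17).symm
  exact hc.dvd_of_dvd_mul_left h

/-- an element of order 17 normalising a 3-group centralises it -/
theorem l17_cent (h : H0 G) {D : Subgroup G} (hD : IsPGroup 3 D) {y : G} (hy : orderOf y = 17)
    (hyD : y ∈ NN D) : D ≤ C1 y := by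
  have : Fact (Nat.Prime 17) := ⟨by norm_num⟩
  have : Fact (Nat.Prime 3) := ⟨Nat.prime_three⟩
  have hm := card_modEq (h.nsq (Or.inr (Or.inl rfl))) hy hyD
  obtain ⟨k, hk, -, hk5⟩ := l17_pcard h (Or.inr rfl) hD
  obtain ⟨j, hj, -, hj5⟩ := l17_pcard h (Or.inr rfl) (hD.to_le (inf_le_left : D ⊓ C1 y ≤ D))
  have hk5 := hk5 rfl
  have hj5 := hj5 rfl
  apply l17_le_of_card
  rw [hk, hj] at hm ⊢
  unfold Nat.ModEq at hm
  interval_cases k <;> interval_cases j <;> simp_all

theorem l17_mem_NN {A : Subgroup G} {g : G} (h : ∀ a ∈ A, g * a * g⁻¹ ∈ A) : g ∈ NN A :=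
  Subgroup.mem_normalizer_fintype (S := (A : Set G)) h

theorem l17_C1_conj (d g : G) :
    C1 (g * d * g⁻¹) = (C1 d).map (MulAut.conj g).toMonoidHom := by
  ext z
  simp only [Subgroup.mem_map, Subgroup.mem_centralizer_singleton_iff, MulEquiv.coe_toMonoidHom,
    MulAut.conj_apply]
  constructor
  · intro hz
    refine ⟨g⁻¹ * z * g, ?_, by group⟩
    calc g⁻¹ * z * g * d = g⁻¹ * (z * (g * d * g⁻¹)) * g := by group
      _ = d * (g⁻¹ * z * g) := by rw [hz]; group
  · rintro ⟨w, hw, rfl⟩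
    calc g * w * g⁻¹ * (g * d * g⁻¹) = g * (w * d) * g⁻¹ := by group
      _ = g * d * g⁻¹ * (g * w * g⁻¹) := by rw [hw]; group

theorem l17_syl {C : Subgroup G} (h1 : Nat.card C = 153) :
    ∃ A : Subgroup G, Nat.card A = 9 ∧ A ≤ C ∧ ∀ d ∈ C, (∃ k, d ^ 3 ^ k = 1) → d ∈ A := by
  have : Fact (Nat.Prime 3) := ⟨Nat.prime_three⟩
  obtain ⟨P⟩ := (inferInstance : Nonempty (Sylow 3 C))
  have hP : Nat.card P = 9 := by
    rw [P.card_eq_multiplicity, h1, show 153 = 3 ^ 2 * 17 by norm_num,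
      Nat.factorization_mul (by norm_num) (by norm_num), Nat.Prime.factorization_pow Nat.prime_three,
      Nat.Prime.factorization (by norm_num : Nat.Prime 17)]
    simp
  have hi : (P : Subgroup C).index = 17 := by
    have := (P : Subgroup C).card_mul_index
    rw [h1] at this
    have hP' : Nat.card (P : Subgroup C) = 9 := hP
    rw [hP'] at this
    omega
  have hn : Nat.card (Sylow 3 C) = 1 := by
    have h2 : Nat.card (Sylow 3 C) ∣ 17 := hi ▸ P.card_dvd_index
    have h3 := card_sylow_modEq_one 3 C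
    rcases (Nat.dvd_prime (by norm_num : Nat.Prime 17)).1 h2 with h4 | h4
    · exact h4
    · rw [h4] at h3; exact absurd h3 (by decide)
  have : Subsingleton (Sylow 3 C) := (Nat.card_eq_one_iff_unique.1 hn).1
  refine ⟨(P : Subgroup C).map C.subtype, ?_, Subgroup.map_subtype_le _, ?_⟩
  · rw [Subgroup.card_map_of_injective C.subtype_injective]; exact hP
  · rintro d hd ⟨k, hk⟩
    have hz : IsPGroup 3 (zpowers (⟨d, hd⟩ : C)) := by
      rintro ⟨z, n, rfl⟩
      refine ⟨k, Subtype.ext (Subtype.ext ?_)⟩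
      simp only [SubgroupClass.coe_pow, SubgroupClass.coe_zpow, OneMemClass.coe_one]
      rw [← zpow_natCast, ← zpow_mul, mul_comm, zpow_mul, zpow_natCast, hk, one_zpow]
    obtain ⟨Q, hQ⟩ := hz.exists_le_sylow
    rw [Subsingleton.elim Q P] at hQ
    exact ⟨⟨d, hd⟩, hQ (mem_zpowers _), rfl⟩

/-- `n19`: an element of order 19 normalising a non-trivial `q`-subgroup `D`, `q ∈ {2,3}`, fixes only `1`
(`|C| = 19`), so `|D| ≡ 1 mod 19` (`card_modEq`), but `|D| ∣ 2^7` or `3^5`. -/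
theorem H0.not19 (h : H0 G) {q : ℕ} (hq : q = 2 ∨ q = 3) {D : Subgroup G} (hD : IsPGroup q D)
    (h1 : D ≠ ⊥) : ¬ 19 ∣ Nat.card (NN D) := by
  have : Fact (Nat.Prime 19) := ⟨by norm_num⟩
  intro h19
  obtain ⟨x, hxD, hx⟩ := l17_cauchy h19
  have hm := card_modEq (h.nsq (Or.inr (Or.inr rfl))) hx hxD
  obtain ⟨k, hk, hk7, hk5⟩ := l17_pcard h hq hD
  have hk0 := l17_pos h1 hk
  rw [l17_inf_one (by
    rw [hk, (h.n19 hx).1]
    rcases hq with rfl | rfl <;> exact Nat.Coprime.pow_left _ (by norm_num)), hk] at hm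
  unfold Nat.ModEq at hm
  rcases hq with rfl | rfl
  · interval_cases k <;> simp_all
  · have := hk5 rfl
    interval_cases k <;> simp_all

/-- `A` is the Sylow 3-subgroup of `C1 y` (order `153`; it is normalised by `A` and `y`, so normal, unique),
`NX y ≤ M = NN A`.  `L = Lp 17 (CC A)`.  Every element of order 17 of `M` centralises `A` (`card_modEq`:
`9 ≡ 3^j mod 17`), so `Lp 17 M = L`, `n5 y M = n5 y (CC A) =: n` (`n5_eq_of_le`).  `27 ∣ |M| = n * 2448` (normalisers
grow), so `n ∈ {18, 120}` (`sec17`, `not19`).  For `1 ≠ d ∈ A` put `E = C1 d ≥ CC A` (`|E| ∣ 17 * 155520` by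
`not19` for `zpowers d`); `|E ⊓ NX y|` and `|CC A ⊓ NX y|` are multiples of 153 dividing 2448, and
`|CC A| ∣ |E|` excludes `(n, n5 y E) = (18, 120)` (3-parts) and `(120, _ ≠ 120)`, `(18, 1)`; so `n5 y E ≤ n` and
`Lp 17 E = L` (`Lp_eq`).  If `d, g d g⁻¹ ∈ A` then `L^g = Lp 17 (C1 (g d g⁻¹)) = L` (`Lp_conj`), and `frattini`
gives `g ∈ L * NX y ≤ M`: `ti`.  `|M|` is `44064` or `293760` with 3-part 81 or 27; in the second case take
`P1` Sylow 3 in `M`, `g ∈ N(P1) \ M` a 3-element: `A`, `A^g` have index 3 in `P1`, so meet non-trivially,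
against `ti`. -/
theorem H0.ex17 (h : H0 G) {y : G} (hy : orderOf y = 17) (h1 : Nat.card (C1 y) = 153)
    (h2 : Nat.card (NX y) = 2448) : ∃ A, St17 y A := by
  have : Fact (Nat.Prime 17) := ⟨by norm_num⟩
  have : Fact (Nat.Prime 3) := ⟨Nat.prime_three⟩
  have hN := h.nsq (Or.inr (Or.inl rfl))
  obtain ⟨A, cA, AC, hmem⟩ := l17_syl h1
  have hA3 : IsPGroup 3 A := IsPGroup.of_card (n := 2) (by rw [cA]; norm_num)
  have hA1 : A ≠ ⊥ := by
    rintro rfl
    simp at cA
  have NM : NX y ≤ NN A := by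
    intro g hg
    apply l17_mem_NN
    intro a ha
    apply hmem
    · exact ((Subgroup.mem_normalizer_iff.1 (NX_le_NN_C1 y hg)) a).1 (AC ha)
    · obtain ⟨k, hk⟩ := hA3 ⟨a, ha⟩
      refine ⟨k, ?_⟩
      have hk' : a ^ 3 ^ k = 1 := by simpa using congrArg Subtype.val hk
      rw [conj_pow, hk']; group
  have hCM : CC A ≤ NN A := Subgroup.centralizer_le_normalizer _
  have hyC : y ∈ CC A := by
    intro a ha
    exact Subgroup.mem_centralizer_singleton_iff.1 (AC ha)
  have hyM : y ∈ NN A := hCM hyC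
  have hAA : A ≤ CC A := by
    intro a ha b hb
    have hc := (IsPGroup.isMulCommutative_of_card_eq_prime_sq (p := 3) (G := A)
      (by rw [cA]; norm_num)).is_comm.comm ⟨b, hb⟩ ⟨a, ha⟩
    exact congrArg Subtype.val hc
  have hLM : Lp 17 (NN A) ≤ CC A := by
    apply Lp_le_of
    intro g hg ho a ha
    exact Subgroup.mem_centralizer_singleton_iff.1 (l17_cent h hA3 ho hg ha)
  have hn : n5 y (CC A) = n5 y (NN A) := n5_eq_of_le hN hy hyM hLM hCM
  have hMc : Nat.card (NN A) = n5 y (NN A) * 2448 := by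
    rw [card_eq_n5 y (NN A), inf_eq_right.2 NM, h2]
  have h27 : 3 ^ (2 + 1) ∣ Nat.card (NN A) :=
    Sylow.prime_pow_dvd_card_normalizer (by rw [h.card]; norm_num) (by rw [cA]; norm_num)
  have hdG : ∀ H : Subgroup G, Nat.card H ∣ 50232960 := fun H =>
    h.card ▸ Subgroup.card_subgroup_dvd_card H
  have hnM : n5 y (NN A) = 18 ∨ n5 y (NN A) = 120 := by
    rcases sec17 hN hy hyM (l17_dvd (hdG _) (h.not19 (Or.inr rfl) hA3 hA1)) with h3 | h3
    · rw [hMc, h3] at h27; norm_num at h27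
    · exact h3
  have hL : ∀ d ∈ A, d ≠ 1 → Lp 17 (C1 d) = Lp 17 (CC A) := by
    intro d hd hd1
    have hCE : CC A ≤ C1 d := by
      intro z hz
      exact Subgroup.mem_centralizer_singleton_iff.2 (hz d hd).symm
    apply Lp_eq hN hy hyC hCE
    have hz3 : IsPGroup 3 (zpowers d) := hA3.to_le (zpowers_le.2 hd)
    have h19 : ¬ 19 ∣ Nat.card (C1 d) := fun h19 =>
      h.not19 (Or.inr rfl) hz3 (by simpa using hd1)
        (h19.trans (Subgroup.card_dvd_of_le (C1_le_NX d)))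
    have hm := sec17 hN hy (hCE hyC) (l17_dvd (hdG _) h19)
    rw [hn]
    rcases hnM with h3 | h3
    · rcases hm with h4 | h4 | h4
      · omega
      · omega
      · exfalso
        have hd1 : Nat.card (CC A) ∣ Nat.card (C1 d) := Subgroup.card_dvd_of_le hCE
        rw [card_eq_n5 y (CC A), card_eq_n5 y (C1 d), hn, h3, h4] at hd1
        have h9 : 9 ∣ Nat.card ↥(CC A ⊓ NX y) :=
          cA ▸ Subgroup.card_dvd_of_le (le_inf hAA (AC.trans (C1_le_NX y)))
        have hb : Nat.card ↥(C1 d ⊓ NX y) ∣ 2448 := h2 ▸ Subgroup.card_dvd_of_le inf_le_right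
        have h5 : 18 * 9 ∣ 120 * 2448 :=
          ((Nat.mul_dvd_mul_left 18 h9).trans hd1).trans (Nat.mul_dvd_mul_left 120 hb)
        norm_num at h5
    · rcases hm with h4 | h4 | h4 <;> omega
  have ti : ∀ g : G, ∀ d ∈ A, d ≠ 1 → g * d * g⁻¹ ∈ A → g ∈ NN A := by
    intro g d hd hd1 hgd
    have hd2 : g * d * g⁻¹ ≠ 1 := by
      intro h0
      apply hd1
      have : d = g⁻¹ * (g * d * g⁻¹) * g := by group
      rw [this, h0]; group
    have e1 := hL _ hgd hd2
    rw [l17_C1_conj, Lp_conj, hL d hd hd1] at e1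
    have hg : g ∈ NN (Lp 17 (CC A)) := by
      apply l17_mem_NN
      intro a ha
      rw [← e1]
      exact ⟨a, ha, rfl⟩
    obtain ⟨l, hl, n, hn', rfl⟩ := frattini hN hy hyC hg
    exact mul_mem (hCM (Lp_le _ hl)) (NM hn')
  refine ⟨A, hy, cA, AC, fun d hd ho => hmem d hd ⟨1, by rw [← ho, pow_one, pow_orderOf_eq_one]⟩,
    NM, ?_, ti⟩
  rcases hnM with h3 | h3
  · rw [hMc, h3]
  exfalso
  have hAM : A ≤ NN A := Subgroup.le_normalizer
  obtain ⟨K', hK', hAK'⟩ := Sylow.exists_subgroup_card_pow_succ (G := NN A) (p := 3) (n := 2) h27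
    (H := A.subgroupOf (NN A))
    (by rw [Nat.card_congr (Subgroup.subgroupOfEquivOfLe hAM).toEquiv, cA]; norm_num)
  set K : Subgroup G := K'.map (NN A).subtype with hK
  have cK : Nat.card K = 3 ^ 3 := by
    rw [hK, Subgroup.card_map_of_injective (NN A).subtype_injective]; exact hK'
  have hAK : A ≤ K := fun a ha => ⟨⟨a, hAM ha⟩, hAK' ha, rfl⟩
  have h81 : 3 ^ (3 + 1) ∣ Nat.card (NN K) :=
    Sylow.prime_pow_dvd_card_normalizer (by rw [h.card]; norm_num) cK
  have hnle : ¬ NN K ≤ NN A := by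
    intro hle
    have := h81.trans (Subgroup.card_dvd_of_le hle)
    rw [hMc, h3] at this
    norm_num at this
  obtain ⟨g, hgK, hgM⟩ := SetLike.not_le_iff_exists.1 hnle
  set B : Subgroup G := A.map (MulAut.conj g).toMonoidHom with hB
  have cB : Nat.card B = 9 := by
    rw [hB, Subgroup.card_map_of_injective (MulAut.conj g).injective, cA]
  have hBK : B ≤ K := by
    rintro _ ⟨a, ha, rfl⟩
    exact ((Subgroup.mem_normalizer_iff.1 hgK) a).1 (hAK ha)
  have hbot : A ⊓ B = ⊥ := by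
    rw [eq_bot_iff]
    rintro _ ⟨hd, d, hdA, rfl⟩
    by_contra hne
    refine hgM (ti g d hdA ?_ hd)
    rintro rfl
    simp at hne
  have i1 : A.relIndex K = 3 := by
    have := (A.subgroupOf K).card_mul_index
    rw [Nat.card_congr (Subgroup.subgroupOfEquivOfLe hAK).toEquiv, cA, cK] at this
    unfold Subgroup.relIndex
    omega
  have i2 := Subgroup.relIndex_le_of_le_right (H := A) hBK (by omega)
  rw [← Subgroup.inf_relIndex_right, hbot, Subgroup.relIndex_bot_left, cB, i1] at i2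
  omega

/-- `n17`.  `two`: `not19`, and an element of order 17 of `NN D` fixes only `1` (`|C1 y|` odd), `2^k ≢ 1 mod 17`.
`three`: `not19`; an element `y` of order 17 of `NN D` centralises `D` (`3^k ≡ 3^j mod 17`), so a power `d'` of `d`
of order 3; then `|C1 y| = 153`, `d' ∈ A`, `C1 d ≤ C1 d' ≤ NN A` (`ti`), `5 ∤ 44064`. -/
theorem H0.loc (h : H0 G) : Loc G := by
  have : Fact (Nat.Prime 17) := ⟨by norm_num⟩
  have : Fact (Nat.Prime 3) := ⟨Nat.prime_three⟩
  have hN := h.nsq (Or.inr (Or.inl rfl))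
  have hdG : ∀ H : Subgroup G, Nat.card H ∣ 50232960 := fun H =>
    h.card ▸ Subgroup.card_subgroup_dvd_card H
  constructor
  · intro D hD h1
    refine l17_dvd' (l17_dvd (hdG _) (h.not19 (Or.inl rfl) hD h1)) fun h17 => ?_
    obtain ⟨x, hxD, hx⟩ := l17_cauchy h17
    have hm := card_modEq hN hx hxD
    obtain ⟨k, hk, hk7, -⟩ := l17_pcard h (Or.inl rfl) hD
    have hk0 := l17_pos h1 hk
    rw [l17_inf_one (by
      rw [hk]
      rcases h.n17 hx with ⟨h3, -⟩ | ⟨h3, -⟩ <;> rw [h3] <;>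
        exact Nat.Coprime.pow_left _ (by norm_num)), hk] at hm
    unfold Nat.ModEq at hm
    interval_cases k <;> simp_all
  · intro D hD d hd hd1 h5
    have h1 : D ≠ ⊥ := by
      rintro rfl
      exact hd1 (by simpa using hd)
    refine l17_dvd' (l17_dvd (hdG _) (h.not19 (Or.inr rfl) hD h1)) fun h17 => ?_
    obtain ⟨y, hyD, hy⟩ := l17_cauchy h17
    have hDy := l17_cent h hD hy hyD
    have hz3 : IsPGroup 3 (zpowers d) := hD.to_le (zpowers_le.2 hd)
    obtain ⟨k, hk⟩ := IsPGroup.iff_card.1 hz3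
    have hk0 := l17_pos (by simpa using hd1 : zpowers d ≠ ⊥) hk
    obtain ⟨e, he, ho⟩ := l17_cauchy (p := 3) (H := zpowers d) (hk ▸ dvd_pow_self 3 hk0)
    have hey : e ∈ C1 y := hDy (zpowers_le.2 hd he)
    rcases h.n17 hy with ⟨h3, -⟩ | ⟨h3, h4⟩
    · have : orderOf e ∣ Nat.card (C1 y) := Subgroup.orderOf_dvd_natCard _ hey
      rw [ho, h3] at this
      norm_num at this
    · obtain ⟨A, hA⟩ := h.ex17 hy h3 h4
      have heA := hA.mem e hey ho
      have he1 : e ≠ 1 := by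
        rintro rfl
        simp at ho
      have hle : C1 d ≤ NN A := by
        intro g hg
        apply hA.ti g e heA he1
        obtain ⟨n, rfl⟩ := he
        have hc : Commute g d := Subgroup.mem_centralizer_singleton_iff.1 hg
        have : g * d ^ n * g⁻¹ = d ^ n := by rw [(hc.zpow_right n).eq]; group
        simpa only [this] using heA
      have := h5.trans (Subgroup.card_dvd_of_le hle)
      rw [hA.cM] at this
      norm_num at this

end Cfsg.Agent.J3O
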