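import Cfsg.Agent.J3O.L17a
import Cfsg.Agent.Math.Ext2
import Cfsg.Agent.Math.Kit3

/-! S3228: an involution with a small centraliser. -/

set_option autoImplicit false
set_option linter.unusedSectionVars false

namespace Cfsg.Agent.J3O

open Subgroup

variable {G : Type*} [Group G] [Finite G]

theorem l17b_free {Ω : Type*} [MulAction G Ω] [Finite Ω] {T : Subgroup G} {C : Set Ω}
    (hinv : ∀ t ∈ T, ∀ c ∈ C, t • c ∈ C)
    (hf : ∀ t ∈ T, ∀ c ∈ C, t • c = c → t = 1) : Nat.card T ∣ C.ncard := by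
  let _ : MulAction T C :=
    { smul := fun t c => ⟨(t : G) • c.1, hinv t t.2 c c.2⟩
      one_smul := fun c => Subtype.ext (one_smul G _)
      mul_smul := fun a b c => Subtype.ext (mul_smul (a : G) _ _) }
  rw [← Nat.card_coe_set_eq, Nat.card_congr (MulAction.selfEquivOrbitsQuotientProd (G := T) (X := C)
    fun c => (eq_bot_iff_forall _).2 fun t ht =>
      Subtype.ext (hf t t.2 c c.2 (congrArg Subtype.val ht))), Nat.card_prod]
  exact Dvd.intro_left _ rfl

theorem l17b_orb {Ω : Type*} [MulAction G Ω] (H : Subgroup G) (a : Ω) :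
    (MulAction.orbit H a).ncard = (MulAction.stabilizer G a).relIndex H :=
  (MulAction.index_stabilizer H a).symm

theorem l17b_orbq (N H : Subgroup G) :
    (MulAction.orbit H ((1 : G) : G ⧸ N)).ncard = N.relIndex H :=
  (l17b_orb H _).trans (by rw [MulAction.stabilizer_quotient])

theorem l17b_cj (H : Subgroup G) (a : G) :
    ((fun h => h * a * h⁻¹) '' (H : Set G)).ncard = (C1 a).relIndex H := by
  let _ : MulAction H G := MulAction.compHom G (MulAut.conj.comp H.subtype)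
  have h2 : MulAction.stabilizer H a = (C1 a).subgroupOf H := by
    ext n
    rw [mem_subgroupOf, mem_centralizer_singleton_iff, ← mul_inv_eq_iff_eq_mul]
    rfl
  rw [relIndex, ← h2, MulAction.index_stabilizer]
  congr 1
  ext b
  exact ⟨fun ⟨h, hh, e⟩ => ⟨⟨h, hh⟩, e⟩, fun ⟨h, e⟩ => ⟨h, h.2, e⟩⟩

theorem l17b_rel {A B : Subgroup G} (h : A ≤ B) : A.relIndex B * Nat.card A = Nat.card B := by
  rw [← Nat.card_congr (subgroupOfEquivOfLe h).toEquiv]
  exact (A.subgroupOf B).index_mul_card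

omit [Finite G] in
theorem l17b_pow {u y : G} {k : ℕ} (h : u * y * u⁻¹ = y ^ k) (n : ℕ) :
    u ^ n * y * (u ^ n)⁻¹ = y ^ k ^ n := by
  induction n with
  | zero => simp
  | succ n ih =>
    calc u ^ (n + 1) * y * (u ^ (n + 1))⁻¹ = u ^ n * (u * y * u⁻¹) * (u ^ n)⁻¹ := by
          rw [pow_succ]; group
      _ = _ := by rw [h, ← conj_pow, ih, ← pow_mul, pow_succ]

/-- an element of order 16 of `NX y` whose eighth power inverts `y` -/
theorem l17b_v {y : G} (hy : orderOf y = 17) (h1 : Nat.card (C1 y) = 153)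
    (h2 : Nat.card (NX y) = 2448) :
    ∃ v ∈ NX y, v ^ 16 = 1 ∧ v ^ 8 * y * (v ^ 8)⁻¹ = y⁻¹ := by
  have h3 := l17b_rel (C1_le_NX y)
  rw [h1, h2] at h3
  have h4 := l17b_cj (NX y) y
  have h5 : ((zpowers y : Set G) \ {1}).ncard = 16 := by
    have := Set.ncard_sdiff_singleton_add_one (one_mem (zpowers y) : 1 ∈ (zpowers y : Set G))
    rw [← Nat.card_coe_set_eq (zpowers y : Set G), SetLike.coe_sort_coe, Nat.card_zpowers, hy] at this
    omega
  have h6 : (fun h => h * y * h⁻¹) '' (NX y : Set G) = (zpowers y : Set G) \ {1} :=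
    Set.eq_of_subset_of_ncard_le (by
      rintro _ ⟨g, hg, rfl⟩
      refine ⟨(mem_normalizer_iff.1 hg y).1 (mem_zpowers y), fun e => ?_⟩
      have := bas_ord g y
      rw [show g * y * g⁻¹ = 1 from e, orderOf_one, hy] at this
      omega) (by omega)
  obtain ⟨u, hu, e⟩ : y ^ 3 ∈ (fun h => h * y * h⁻¹) '' (NX y : Set G) := by
    rw [h6]
    refine ⟨npow_mem_zpowers y 3, fun e => ?_⟩
    have := orderOf_dvd_of_pow_eq_one (show y ^ 3 = 1 from e)
    rw [hy] at this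
    omega
  refine ⟨u ^ 153, pow_mem hu _, ?_, ?_⟩
  · rw [← pow_mul, ← orderOf_dvd_iff_pow_eq_one]
    exact (orderOf_dvd_natCard _ hu).trans h2.dvd
  · rw [← pow_mul, l17b_pow e, eq_inv_iff_mul_eq_one, ← pow_succ, ← orderOf_dvd_iff_pow_eq_one, hy]
    decide +kernel

/-- an element inverting `y` fixes at most two of 18 conjugates of `zpowers y` -/
theorem l17b_two (hN : ¬ 17 ^ 2 ∣ Nat.card G) {y w : G} (hy : orderOf y = 17) {M D : Subgroup G}
    (hM : y ∈ M) (hn : n5 y M = 18) (hw : w * y * w⁻¹ = y⁻¹) (DM : D ≤ M) (DC : D ≤ C1 w) :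
    n5 y D ≤ 2 := by
  have : Fact (Nat.Prime 17) := ⟨by norm_num⟩
  set x0 : G ⧸ NX y := ((1 : G) : G ⧸ NX y)
  have st : ∀ g : G, g • x0 = x0 ↔ g ∈ NX y := fun g => by
    rw [← MulAction.mem_stabilizer_iff, MulAction.stabilizer_quotient]
  have wN : w ∈ NX y := bas_NX (hw ▸ inv_mem (mem_zpowers y))
  have key : ∀ a : G ⧸ NX y, a ≠ x0 → ∀ z ∈ zpowers y, z • a = a → z = 1 := fun a ha z hz e => by
    obtain ⟨g, rfl⟩ := MulAction.exists_smul_eq G x0 a
    by_contra z1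
    have oz : orderOf z = 17 := ((Nat.dvd_prime this.out).1
      ((orderOf_dvd_of_mem_zpowers hz).trans hy.dvd)).resolve_left fun e => z1 (orderOf_eq_one_iff.1 e)
    have h1 : g⁻¹ * z * g⁻¹⁻¹ ∈ NX y := by
      rw [← st, inv_inv, mul_smul, mul_smul, e, inv_smul_smul]
    obtain ⟨l, hl, h2⟩ := bas_conj hN hy (le_normalizer (mem_zpowers y)) h1 ((bas_ord _ z).trans oz)
    have h3 := (mem_normalizer_iff.1 hl _).2 h2
    have e3 := bas_gen hz (oz.trans hy.symm)
    rw [← e3] at h3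
    have h4 := inv_mem (bas_NX h3)
    rw [inv_inv, NX, e3] at h4
    exact ha ((st g).2 h4)
  have h18 : ((MulAction.orbit M x0) \ {x0}).ncard = 17 := by
    have := Set.ncard_sdiff_singleton_add_one (MulAction.mem_orbit_self (M := M) x0)
    rw [l17b_orbq] at this
    change _ = n5 y M at this
    omega
  have h5 : ((MulAction.orbit D x0) \ {x0}).ncard ≤ 1 := by
    rw [Set.ncard_le_one]
    rintro _ ⟨⟨c, rfl⟩, ha⟩ _ ⟨⟨d, rfl⟩, hb⟩
    have fx : ∀ c : D, w • (c : G) • x0 = (c : G) • x0 := fun c => by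
      rw [← mul_smul, ← mem_centralizer_singleton_iff.1 (DC c.2), mul_smul, (st w).2 wN]
    have h6 : MulAction.orbit (zpowers y) ((c : G) • x0) = (MulAction.orbit M x0) \ {x0} := by
      refine Set.eq_of_subset_of_ncard_le ?_ ?_
      · rintro _ ⟨z, rfl⟩
        refine ⟨⟨⟨z * c, mul_mem (zpowers_le.2 hM z.2) (DM c.2)⟩, mul_smul (z : G) (c : G) x0⟩, fun e => ha ?_⟩
        have e1 : (z : G) • (c : G) • x0 = x0 := e
        rw [smul_eq_iff_eq_inv_smul, (st _).2 (inv_mem (le_normalizer z.2))] at e1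
        exact e1
      · have : MulAction.stabilizer (zpowers y) ((c : G) • x0) = ⊥ :=
          (eq_bot_iff_forall _).2 fun z hz => Subtype.ext (key _ ha z z.2 hz)
        rw [h18, ← MulAction.index_stabilizer, this, index_bot, Nat.card_zpowers, hy]
    obtain ⟨⟨_, k, rfl⟩, e⟩ : (d : G) • x0 ∈ MulAction.orbit (zpowers y) ((c : G) • x0) := by
      rw [h6]
      exact ⟨⟨⟨d, DM d.2⟩, rfl⟩, hb⟩
    have e1 : y ^ k • (c : G) • x0 = (d : G) • x0 := e
    have e2 : w * y ^ k = (y ^ k)⁻¹ * w := by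
      rw [← inv_zpow, ← hw, conj_zpow, inv_mul_cancel_right]
    have e3 := fx d
    rw [← e1, ← mul_smul, e2, mul_smul, fx c, inv_smul_eq_iff, ← mul_smul] at e3
    have e4 := key _ ha _ (mul_mem (zpow_mem_zpowers y k) (zpow_mem_zpowers y k)) e3.symm
    have e5 : y ^ k = 1 := by
      rw [← sq, ← orderOf_dvd_iff_pow_eq_one] at e4
      exact orderOf_eq_one_iff.1 (Nat.eq_one_of_dvd_coprimes (by norm_num : Nat.Coprime 2 17) e4
        ((orderOf_dvd_of_mem_zpowers (zpow_mem_zpowers y k)).trans hy.dvd))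
    rw [e5, one_smul] at e1
    exact e1
  have := Set.ncard_sdiff_singleton_add_one (MulAction.mem_orbit_self (M := D) x0)
  rw [l17b_orbq] at this
  change _ = n5 y D at this
  omega

theorem l17b_cnt (a c : G) :
    {u : G × G | IsConj a u.1 ∧ IsConj a u.2 ∧ IsConj c (u.1 * u.2)}.ncard =
      (C1 c).index * Char.Euclid.pairs a a c := by
  have := Fintype.ofFinite {b // IsConj c b}
  have h := Nat.card_sigma (β := fun g : {b // IsConj c b} =>
    {u : G × G // IsConj a u.1 ∧ IsConj a u.2 ∧ u.1 * u.2 = g})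
  replace h := h.trans
    (Finset.sum_congr rfl (g := fun _ => Char.Euclid.pairs a a c) fun g _ => (Math.pairs_conj a a g.2).symm)
  rw [Finset.sum_const,
    Finset.card_univ, ← Nat.card_eq_fintype_card, Math.card_isConj, smul_eq_mul] at h
  rw [← h, ← Nat.card_coe_set_eq]
  refine Nat.card_eq_of_bijective (fun u => ⟨⟨u.1.1 * u.1.2, u.2.2.2⟩, u.1, u.2.1, u.2.2.1, rfl⟩) ⟨?_, ?_⟩
  · exact fun u v e => Subtype.ext (congrArg (fun t => t.2.1) e)
  · rintro ⟨⟨g, hg⟩, u, h1, h2, h3⟩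
    obtain rfl : u.1 * u.2 = g := h3
    exact ⟨⟨u, h1, h2, hg⟩, rfl⟩

/-- `ex17`, `M = NN A`.  `U` Sylow 2 in `NX y` (order 16) meets `C1 y` trivially, so embeds in the cyclic group
`Aut(zpowers y)` of order 16: `U = zpowers u`, `w = u^8` inverts `y`.  `u` permutes the 8 non-trivial elements of
`A` with orbits of length `≤ 8`, so `w` centralises `A`.  `M` has 18 Sylow 17-subgroups (`44064 / 2448`), `y`
permutes the 17 others cyclically (`P'^(y^i)`); if `w` fixes `P'` and `P'^(y^i)` then `y^(2i)` normalises `P'`, so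
`i = 0`: `w` fixes at most 2 of them.  `C1 w ⊓ M` permutes these, with stabiliser `C1 w ⊓ NX y` of order prime to
17, so `|C1 w ⊓ M| ≤ 288`, and it is a multiple of `144` (`A`, `U`).  Hence `A` is Sylow 3 in `C = C1 w`
(normalisers grow) and `n = |C : C ⊓ M|` is the number of Sylow 3-subgroups of `C`; by `ti`, `A` acts
freely on the others (`d ∈ A` normalising `A'` lies in `A'`), so `n ≡ 1 mod 9`; `|C| ∣ 155520` (`loc`),
`3 ∤ n`, `16 n ∣ |C|` give `n ∣ 40`, `n ≤ 10`. -/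
theorem H0.small9 (h : H0 G) {y : G} (hy : orderOf y = 17) (h1 : Nat.card (C1 y) = 153)
    (h2 : Nat.card (NX y) = 2448) : ∃ w : G, orderOf w = 2 ∧ Nat.card (C1 w) ≤ 2880 := by
  have : Fact (Nat.Prime 3) := ⟨Nat.prime_three⟩
  have hN := h.nsq (p := 17) (by simp)
  obtain ⟨A, S⟩ := h.ex17 hy h1 h2
  obtain ⟨v, vN, v16, hw⟩ := l17b_v hy h1 h2
  have w1 : v ^ 8 ≠ 1 := fun e => by
    rw [e, one_mul, inv_one, mul_one, eq_inv_iff_mul_eq_one, ← sq, ← orderOf_dvd_iff_pow_eq_one, hy] at hw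
    omega
  have ov : orderOf v = 2 ^ (3 + 1) := orderOf_eq_prime_pow w1 v16
  have ow : orderOf (v ^ 8) = 2 := orderOf_eq_prime (by rw [← pow_mul]; exact v16) w1
  have AC : A ≤ C1 (v ^ 8) := fun a ha => by
    have h3 := l17b_cj (zpowers v) a
    have h4 : ((fun h => h * a * h⁻¹) '' (zpowers v : Set G)).ncard ≤ (A : Set G).ncard :=
      Set.ncard_le_ncard (by
        rintro _ ⟨g, hg, rfl⟩
        exact (mem_normalizer_iff.1 (zpowers_le.2 (S.NM vN) hg) a).1 ha)
    rw [h3, ← Nat.card_coe_set_eq, SetLike.coe_sort_coe, S.cA] at h4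
    have h5 : (C1 a).relIndex (zpowers v) ∣ 2 ^ 4 := by
      rw [← ov, ← Nat.card_zpowers]; exact index_dvd_card _
    have h6 : (C1 a).relIndex (zpowers v) ∣ 8 := by
      obtain ⟨k, hk, e⟩ := (Nat.dvd_prime_pow Nat.prime_two).1 h5
      rw [e] at h4 ⊢
      interval_cases k <;> omega
    obtain ⟨k, hk⟩ := h6
    have h7 : v ^ (C1 a).relIndex (zpowers v) ∈ C1 a :=
      ((C1 a).subgroupOf (zpowers v)).pow_index_mem ⟨v, mem_zpowers v⟩
    have h8 := pow_mem h7 k
    rw [← pow_mul, ← hk] at h8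
    exact mem_centralizer_singleton_iff.2 (mem_centralizer_singleton_iff.1 h8).symm
  have vC : v ∈ C1 (v ^ 8) := mem_centralizer_singleton_iff.2 (Commute.self_pow v 8)
  refine ⟨_, ow, ?_⟩
  generalize v ^ 8 = w at *
  have hC : Nat.card (C1 w) ∣ 155520 := (card_dvd_of_le (C1_le_NX w)).trans (h.loc.two _
    (IsPGroup.of_card (n := 1) (by rw [Nat.card_zpowers, ow, pow_one])) (by simpa using w1))
  have yM : y ∈ NN A := S.NM (le_normalizer (mem_zpowers y))
  have hn : n5 y (NN A) = 18 := by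
    have := card_eq_n5 y (NN A)
    rw [inf_eq_right.2 S.NM, h2, S.cM] at this
    omega
  have d1 := l17b_two hN hy yM hn hw (inf_le_left : NN A ⊓ C1 w ≤ _) inf_le_right
  have d2 := card_eq_n5 y (NN A ⊓ C1 w)
  have d3 : Nat.card ↥(NN A ⊓ C1 w ⊓ NX y) ≤ 144 := Nat.le_of_dvd (by norm_num)
    (Nat.dvd_gcd (h2 ▸ card_dvd_of_le inf_le_right)
      ((card_dvd_of_le (inf_le_left.trans inf_le_right)).trans hC) : _ ∣ Nat.gcd 2448 155520)
  have d4 : Nat.card ↥(NN A ⊓ C1 w) ≤ 288 := d2.le.trans (Nat.mul_le_mul d1 d3)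
  have AD : A ≤ NN A ⊓ C1 w := le_inf le_normalizer AC
  have d5 : 9 ∣ Nat.card ↥(NN A ⊓ C1 w) := S.cA ▸ card_dvd_of_le AD
  have d6 : 16 ∣ Nat.card ↥(NN A ⊓ C1 w) := by
    have := orderOf_dvd_natCard (NN A ⊓ C1 w) ⟨S.NM vN, vC⟩
    rwa [ov] at this
  have d7 : 0 < Nat.card ↥(NN A ⊓ C1 w) := Nat.card_pos
  have d8 : ¬ 27 ∣ Nat.card ↥(NN A ⊓ C1 w) := by omega
  have cA' : Nat.card (A.subgroupOf (C1 w)) = 3 ^ 2 := by
    rw [Nat.card_congr (subgroupOfEquivOfLe AC).toEquiv, S.cA]; rfl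
  have d9 : ¬ 27 ∣ Nat.card (C1 w) := fun e => d8 (by
    have := Sylow.prime_pow_dvd_card_normalizer (p := 3) (n := 2) e cA'
    rwa [← subgroupOf_normalizer_eq AC, ← inf_subgroupOf_right,
      Nat.card_congr (subgroupOfEquivOfLe inf_le_right).toEquiv] at this)
  have pA : IsPGroup 3 A := IsPGroup.of_card (n := 2) S.cA
  set x0 : G ⧸ NN A := ((1 : G) : G ⧸ NN A)
  have st : ∀ g : G, g • x0 = x0 ↔ g ∈ NN A := fun g => by
    rw [← MulAction.mem_stabilizer_iff, MulAction.stabilizer_quotient]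
  have e1 := l17b_free (T := A) (C := MulAction.orbit (C1 w) x0 \ {x0}) (by
    rintro t ht _ ⟨⟨c, rfl⟩, hc⟩
    refine ⟨⟨⟨t * c, mul_mem (AC ht) c.2⟩, mul_smul t (c : G) x0⟩, fun e => hc ?_⟩
    have e1 : t • (c : G) • x0 = x0 := e
    rw [smul_eq_iff_eq_inv_smul, (st _).2 (inv_mem (le_normalizer ht))] at e1
    exact e1) (by
    rintro t ht _ ⟨⟨⟨c, cC⟩, rfl⟩, hc⟩ e
    have e1 : t • c • x0 = c • x0 := e
    by_contra t1
    have h3 : c⁻¹ * t * c⁻¹⁻¹ ∈ NN A := by
      rw [← st, inv_inv, mul_smul, mul_smul, e1, inv_smul_smul]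
    have h4 : c⁻¹ * t * c⁻¹⁻¹ ∈ C1 w := mul_mem (mul_mem (inv_mem cC) (AC ht)) (inv_mem (inv_mem cC))
    have h5 : IsPGroup 3 (zpowers (c⁻¹ * t * c⁻¹⁻¹)) := by
      obtain ⟨k, hk⟩ := IsPGroup.iff_orderOf.1 pA ⟨t, ht⟩
      exact IsPGroup.of_card (n := k) (by rw [Nat.card_zpowers, bas_ord, ← hk, ← orderOf_coe])
    obtain ⟨k, hk⟩ := (IsPGroup.to_sup_of_normal_right' h5 pA (zpowers_le.2 h3)).exists_card_eq
    have h6 : Nat.card ↥(zpowers (c⁻¹ * t * c⁻¹⁻¹) ⊔ A) ≤ Nat.card A := by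
      have := card_dvd_of_le (sup_le (zpowers_le.2 h4) AC)
      rw [hk] at this
      rw [hk, S.cA]
      exact Nat.pow_le_pow_right (by norm_num : 0 < 3) (show k ≤ 2 from
        not_lt.1 fun l => d9 ((pow_dvd_pow 3 l).trans this))
    have h7 := (eq_of_le_of_card_ge le_sup_right h6).ge (mem_sup_left (mem_zpowers _))
    have h8 := inv_mem (S.ti _ t ht t1 h7)
    rw [inv_inv] at h8
    exact hc ((st c).2 h8))
  have e2 := Set.ncard_sdiff_singleton_add_one (MulAction.mem_orbit_self (M := C1 w) x0)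
  have e3 := l17b_rel (inf_le_right : NN A ⊓ C1 w ≤ C1 w)
  rw [inf_relIndex_right] at e3
  rw [l17b_orbq] at e2
  rw [S.cA] at e1
  rw [← e3] at hC d9 ⊢
  generalize (NN A).relIndex (C1 w) = n at *
  have e4 : n ∣ 1080 := by
    obtain ⟨m, hm⟩ : 144 ∣ Nat.card ↥(NN A ⊓ C1 w) := by omega
    exact Nat.dvd_of_mul_dvd_mul_right (by norm_num : 0 < 144)
      (((Dvd.intro m (by rw [hm, mul_assoc])) : n * 144 ∣ _).trans hC)
  have e5 : n ∣ 40 := (Nat.Coprime.dvd_mul_left (m := 3 ^ 3) (Nat.Coprime.pow_right 3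
    (Nat.prime_three.coprime_iff_not_dvd.2 (by omega)).symm)).1 e4
  have e6 : n ≤ 10 := by
    have := Nat.le_of_dvd (by norm_num) e5
    by_contra
    interval_cases n <;> omega
  exact Nat.mul_le_mul e6 d4

/-- `Math.exists_inverts` gives an involution `w` inverting `y`, so also `y^3`; `Math.pairs_of_inverts`:
`pairs w w y = pairs w w (y^3) = 17` (`C1 (y^3) = C1 y = zpowers y`).  `y`, `y^3` are not conjugate (3 is a
primitive root mod 17: if `g y g⁻¹ = y^3` then `g ∈ NX y`, `g^8 ∈ C1 y` as the index is 8, but `3^8 ≡ -1`).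
As in `Math.index_mul_pairs_le`, with the two classes (each of size `|G|/17`): `2 |G| ≤ i²` for
`i = (C1 w).index`, so `i ≥ 10024`, `|C1 w| ≤ 5011`. -/
theorem H0.small1 (h : H0 G) {y : G} (hy : orderOf y = 17) (h1 : Nat.card (C1 y) = 17)
    (h2 : Nat.card (NX y) = 136) : ∃ w : G, orderOf w = 2 ∧ Nat.card (C1 w) ≤ 5011 := by
  have : Fact (Nat.Prime 17) := ⟨by norm_num⟩
  obtain ⟨w, w1, w2, hw⟩ := Math.exists_inverts hy (by rw [h1]; norm_num) (by rw [h2]; norm_num)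
  have y3 : orderOf (y ^ 3) = 17 := by rw [(hy ▸ by norm_num : (orderOf y).Coprime 3).orderOf_pow, hy]
  have z3 := bas_gen (npow_mem_zpowers y 3) (y3.trans hy.symm)
  have c3 : C1 (y ^ 3) = C1 y := by rw [bas_C1, z3, bas_C1]
  have hC : C1 y = zpowers y := (eq_of_le_of_card_ge (zpowers_le.2 (mem_centralizer_singleton_iff.2 rfl))
    (by rw [h1, Nat.card_zpowers, hy])).symm
  have p1 := Math.pairs_of_inverts hy (by norm_num) hC w2 hw
  have p3 := Math.pairs_of_inverts y3 (by norm_num) (c3.trans (hC.trans z3.symm)) w2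
    (by rw [← conj_pow, hw, inv_pow])
  have nc : ¬ IsConj y (y ^ 3) := fun e => by
    obtain ⟨g, e⟩ := isConj_iff.1 e
    have h3 := l17b_rel (C1_le_NX y)
    rw [h1, h2] at h3
    have : ((C1 y).subgroupOf (NX y)).Normal := by rw [bas_C1]; infer_instance
    have h4 : g ^ (C1 y).relIndex (NX y) ∈ C1 y :=
      ((C1 y).subgroupOf (NX y)).pow_index_mem ⟨g, bas_NX (e ▸ npow_mem_zpowers y 3)⟩
    rw [show (C1 y).relIndex (NX y) = 8 by omega, mem_centralizer_singleton_iff,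
      ← mul_inv_eq_iff_eq_mul, l17b_pow e, show 3 ^ 8 = 6560 + 1 from rfl, pow_succ, mul_eq_right,
      ← orderOf_dvd_iff_pow_eq_one, hy] at h4
    omega
  have s1 := l17b_cnt w y
  have s3 := l17b_cnt w (y ^ 3)
  rw [p3, c3] at s3
  rw [p1] at s1
  have i1 := (C1 y).index_mul_card
  have i2 := (C1 w).index_mul_card
  rw [h1, h.card] at i1
  rw [h.card] at i2
  have s4 := Set.ncard_union_eq (s := {u : G × G | IsConj w u.1 ∧ IsConj w u.2 ∧ IsConj y (u.1 * u.2)})
    (t := {u : G × G | IsConj w u.1 ∧ IsConj w u.2 ∧ IsConj (y ^ 3) (u.1 * u.2)})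
    (Set.disjoint_left.2 fun u a b => nc (a.2.2.trans b.2.2.symm))
  have s5 := s4.ge.trans (Set.ncard_le_ncard (t := {b | IsConj w b} ×ˢ {b | IsConj w b}) (by
    rintro u (a | a) <;> exact ⟨a.1, a.2.1⟩))
  rw [s1, s3, i1, Set.ncard_prod, Math.ncard_isConj] at s5
  refine ⟨w, orderOf_eq_prime (by rw [sq, w2]) w1, not_lt.1 fun l => ?_⟩
  have l2 : (C1 w).index ≤ 10022 := by
    have := Nat.mul_le_mul_left (C1 w).index l
    omega
  have := Nat.mul_le_mul l2 l2
  change _ ≤ (C1 w).index * (C1 w).index at s5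
  omega

end Cfsg.Agent.J3O
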