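import Cfsg.Agent.J3O.N19K

/-! S3228: more kernel computations for the sieve at the primes 19 and 17. -/

set_option autoImplicit false
set_option Elab.async false

namespace Cfsg.Agent.J3O.N19K

theorem kT : ∀ a < 8, ∀ b < 6, ∀ c < 2, ∀ d < 2, cT a b c d = true := by
  decide +kernel

theorem kD : ∀ a < 8, ∀ b < 6, ∀ c < 2, cD a b c = true := by
  decide +kernel

end Cfsg.Agent.J3O.N19K
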