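import Cfsg.Agent.J3O.Bas
import Cfsg.Agent.Small.Sieve
import Cfsg.Agent.Small.DegMod
import Cfsg.Agent.Math.Nse
import Cfsg.Agent.Math.DegR
import Cfsg.Agent.J3O.N19Kb

/-! S3228: the primes 19 and 17 (sieve). -/

set_option autoImplicit false
set_option linter.unusedSectionVars false

namespace Cfsg.Agent.J3O

open Subgroup

variable {G : Type*} [Group G] [Finite G]

open Cfsg.Agent.Small Cfsg.Agent.Small.Sieve N19K

theorem n19_syl {p : ℕ} [Fact p.Prime] (hN : ¬ p ^ 2 ∣ Nat.card G) {y : G} (hy : orderOf y = p) :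
    ∃ P : Sylow p G, (P : Subgroup G) = zpowers y := by
  have h1 : Nat.card (zpowers y) = p := by rw [Nat.card_zpowers, hy]
  refine ⟨(IsPGroup.of_card (n := 1) (h1.trans (pow_one p).symm)).toSylow fun h => hN ?_, rfl⟩
  rw [← (zpowers y).index_mul_card, h1, pow_two]
  exact Nat.mul_dvd_mul_right h p

theorem n19_top {p : ℕ} [Fact p.Prime] (hN : ¬ p ^ 2 ∣ Nat.card G) {y : G} (hy : orderOf y = p) :
    n5 y ⊤ = Nat.card (Sylow p G) := by
  obtain ⟨P, hP⟩ := n19_syl hN hy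
  rw [P.card_eq_index_normalizer, n5, relIndex_top_right, NX, ← hP]
  rfl

theorem n19_R {q e d : ℕ} (h1 : 1 < q) (h2 : 0 < e) (h3 : e < q)
    (h : (d : ℤ) ≡ 1 [ZMOD q] ∨ (d : ℤ) ≡ -1 [ZMOD q] ∨ (d : ℤ) ≡ e [ZMOD q] ∨
      (d : ℤ) ≡ -e [ZMOD q]) : R q e d = true := by
  have a1 : ∀ r : ℕ, r < q → (d : ℤ) ≡ r [ZMOD q] → d % q = r := fun r hr h => by
    have := Int.natCast_modEq_iff.1 h
    rwa [Nat.ModEq, Nat.mod_eq_of_lt hr] at this
  have a2 : ∀ r : ℕ, 0 < r → r < q → (d : ℤ) ≡ -r [ZMOD q] → d % q = q - r := fun r h0 hr h =>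
    a1 _ (by omega) (h.trans (Int.modEq_iff_dvd.2 ⟨1, by rw [Nat.cast_sub hr.le]; ring⟩))
  simp only [R, Bool.or_eq_true, beq_iff_eq]
  rcases h with h | h | h | h
  · exact .inl (.inl (.inl (a1 1 h1 h)))
  · exact .inl (.inl (.inr (a2 1 one_pos h1 h)))
  · exact .inl (.inr (a1 e h3 h))
  · exact .inr (a2 e h2 h3 h)

theorem n19_ref {A : ℕ → ℕ → ℕ → Bool} (hA : Admits G A) {q e : ℕ} [Fact q.Prime] (h1 : q ≠ 2)
    (P : Sylow q G) (hP : Nat.card (P : Subgroup G) = q)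
    (he : (centralizer ((P : Subgroup G) : Set G)).relIndex
      (normalizer ((P : Subgroup G) : Set G)) = e) (h2 : 0 < e) (h3 : e < q)
    {f : ℕ} (h4 : ∀ d, R q e d = true → R q f d = true) :
    Admits G fun r b d => A r b d && (!(r == q) || R q f d) :=
  hA.refine q (R q f) fun _ hM _ hχ _ =>
    h4 _ (n19_R (Fact.out : q.Prime).one_lt h2 h3 (deg_mod_of_principal h1 P hP he hM hχ))

theorem n19_idx {p : ℕ} [Fact p.Prime] {t : G} (ht : orderOf t = p) {n : ℕ}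
    (h : ∀ g ∈ NX t, g ^ n ∈ C1 t) : (C1 t).relIndex (NX t) ∣ n := by
  have h1 : Nat.card (zpowers t) = p := by rw [Nat.card_zpowers, ht]
  have h2 : IsCyclic (ZMod (Nat.card (zpowers t)))ˣ := by
    rw [h1]; exact ZMod.isCyclic_units_prime Fact.out
  have h3 : IsCyclic (MulAut (zpowers t)) :=
    isCyclic_of_surjective (IsCyclic.mulAutMulEquiv (zpowers t)).symm
      (IsCyclic.mulAutMulEquiv (zpowers t)).symm.surjective
  have hk := normalizerMonoidHom_ker (zpowers t)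
  rw [bas_C1, relIndex, ← hk, index_ker, ← IsCyclic.exponent_eq_card]
  refine Monoid.exponent_dvd_of_forall_pow_eq_one ?_
  rintro ⟨_, g, rfl⟩
  refine Subtype.ext ?_
  have h4 : g ^ n ∈ (zpowers t).normalizerMonoidHom.ker := by
    rw [hk, mem_subgroupOf]
    have := h g g.2
    rwa [bas_C1] at this
  simpa using h4

theorem n19_split {m x : ℕ} (h : m ∣ 2 ^ 7 * 3 ^ 5 * 5 ^ 1 * x) :
    ∃ a < 8, ∃ b < 6, ∃ c < 2, ∃ z, z ∣ x ∧ m = 2 ^ a * 3 ^ b * 5 ^ c * z := by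
  obtain ⟨m1, z, h1, h2, rfl⟩ := (Nat.dvd_mul).1 h
  obtain ⟨m2, w, h3, h4, rfl⟩ := (Nat.dvd_mul).1 h1
  obtain ⟨u, v, h5, h6, rfl⟩ := (Nat.dvd_mul).1 h3
  obtain ⟨a, ha, rfl⟩ := (Nat.dvd_prime_pow Nat.prime_two).1 h5
  obtain ⟨b, hb, rfl⟩ := (Nat.dvd_prime_pow Nat.prime_three).1 h6
  obtain ⟨c, hc, rfl⟩ := (Nat.dvd_prime_pow Nat.prime_five).1 h4
  exact ⟨a, by omega, b, by omega, c, by omega, z, h2, rfl⟩

/-- Copy `Tri/Sv8.lean` + `Sv8K.lean` (kernel checks may go to an extra file `J3O/N19K.lean`).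
`n = 50232960`, `B = 7088`.  Tested: `primeKill B n 17 A0 [(2,7),(3,5),(19,1),(5,1)]` leaves `(k,e,c) =
(3078,16,60), (20520,16,9), (20520,8,18), (369360,8,1)`, so `e₁₇ ∈ {8,16}`; `e₅ ∈ {2,4}`
(`prime_sylow_data`).  Refining `A0` at `q = 17` and `q = 5` by `d % q ∈ {1, q-1, e, q-e}`
(`deg_mod_of_principal`, `Admits.refine`), `primeKill B n 19 A [(17,1),(5,1)]` leaves `(293760,9,1)` and
`(3060,6,144)`. -/
theorem H0.sieve19 (h : H0 G) {y : G} (hy : orderOf y = 19) :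
    (Nat.card (C1 y) = 19 ∧ Nat.card (NX y) = 171) ∨
      (Nat.card (C1 y) = 19 * 144 ∧ Nat.card (NX y) = 19 * 144 * 6) := by
  have := h.simple
  have : Fact (Nat.Prime 17) := ⟨by norm_num⟩
  have : Fact (Nat.Prime 19) := ⟨by norm_num⟩
  obtain ⟨Q⟩ : Nonempty (Sylow 17 G) := inferInstance
  obtain ⟨P, hP⟩ := n19_syl (h.nsq (.inr (.inr rfl))) hy
  have h1 := primeKill2_le kA
  rw [← h.card] at h1
  obtain ⟨_, e, _, h2, -, -, -, -, -, -, -, e3, -, -, -, e4⟩ :=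
    primeKill_sound h.nab (admits_A0 h.nab) h1 Q
  simp only [Bool.or_eq_true, beq_iff_eq] at h2
  have hA : Admits G (A1 17 8) := n19_ref (admits_A0 h.nab) (by norm_num) Q e3 e4 (by omega)
    (by omega) fun d hd => by
      simp only [R, Bool.or_eq_true, beq_iff_eq] at hd ⊢
      omega
  have hc := primeKill2_le kB
  rw [← h.card] at hc
  obtain ⟨_, e, c, k1, -, -, -, -, -, -, -, -, k2, k3, -⟩ := primeKill_sound h.nab hA hc P
  rw [hP] at k2 k3
  rw [bas_C1]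
  simp only [Bool.or_eq_true, Bool.and_eq_true, beq_iff_eq] at k1
  rcases k1 with ⟨rfl, rfl⟩ | ⟨rfl, rfl⟩
  exacts [.inl ⟨k3, k2⟩, .inr ⟨k3, k2⟩]

/-- Tested: for `n = 2^a 3^b 5^c 17^d 19` (`a ≤ 7`, `b ≤ 5`, `c, d ≤ 1`), `primeKill (sqrt n + 1) n 19 A0
[(2,a),(3,b),(5,1),(17,1)] keep` is true with `keep k e c = (6 % e != 0 || 3060 ≤ k)`. -/
theorem sieve19T [IsSimpleGroup G] (hG : ¬ IsMulCommutative G) (h1 : Nat.card G ∣ 50232960)
    {y : G} (hy : orderOf y = 19) (he : (C1 y).relIndex (NX y) ∣ 6) : 3060 ≤ n5 y ⊤ := by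
  have : Fact (Nat.Prime 19) := ⟨by norm_num⟩
  have hN : ¬ 19 ^ 2 ∣ Nat.card G := fun r => by
    have := r.trans h1
    norm_num at this
  obtain ⟨P, hP⟩ := n19_syl hN hy
  obtain ⟨m, hm⟩ : 19 ∣ Nat.card G := hy ▸ orderOf_dvd_natCard y
  have h2 : m ∣ 2 ^ 7 * 3 ^ 5 * 5 ^ 1 * 17 ^ 1 :=
    Nat.dvd_of_mul_dvd_mul_left (by norm_num : 0 < 19) (by rw [← hm]; exact h1)
  obtain ⟨a, ha, b, hb, c, hc, z, hz, rfl⟩ := n19_split h2
  obtain ⟨d, hd, rfl⟩ := (Nat.dvd_prime_pow (by norm_num : Nat.Prime 17)).1 hz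
  have h3 := kT a ha b hb c hc d (by omega)
  rw [cT, frc_eq, frc_eq, nT, ← hm] at h3
  obtain ⟨k, e, _, k1, -, -, -, -, -, -, k2, -, -, -, -, k3⟩ :=
    primeKill_sound hG (admits_A0 hG) (primeKill2_le h3) P
  rw [hP] at k3
  rw [n19_top hN hy, k2]
  rw [bas_C1, show (CC (zpowers y)).relIndex (NX y) = e from k3] at he
  simpa [Nat.mod_eq_zero_of_dvd he] using k1

/-- Exclude the second case of `sieve19` as in `Tri.data8`: a subgroup of order 16 of `C1 y` fixes a second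
one `P'` of the 3060 Sylow 19-subgroups, so some `y0 ≠ 1` centralises `P` and `P'`.  `C = C1 y0` has more than one
Sylow 19-subgroup; `Math.DegR.red` gives `f : L →* T` (central kernel) with `T` simple and as many Sylow
19-subgroups as `C`.  An element of `NX (f y)` lifts to `l ∈ L` normalising `zpowers y ⊔ ker f`, hence
`zpowers y` (`l y l⁻¹` and a power of `y` differ by a central element of order prime to 19), and `l^6`
centralises `y`; `NX/C1` embeds in the cyclic group `Aut(Z19)`, so the index divides 6.  `sieve19T`: `C` has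
`≥ 3060` Sylow 19-subgroups, i.e. all (`Lp_eq`), so `Lp 19 ⊤ ≤ C`, `C = ⊤`, `y0` central. -/
theorem H0.n19 (h : H0 G) {y : G} (hy : orderOf y = 19) :
    Nat.card (C1 y) = 19 ∧ Nat.card (NX y) = 171 := by
  refine (h.sieve19 hy).resolve_right ?_
  rintro ⟨h2, hNX⟩
  have := h.simple
  have hn := h.card
  have := Fact.mk Nat.prime_two
  have : Fact (Nat.Prime 19) := ⟨by norm_num⟩
  have hN := h.nsq (p := 19) (.inr (.inr rfl))
  obtain ⟨P, hP⟩ := n19_syl hN hy
  have h0 : n5 y ⊤ = 3060 := by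
    have := (NX y).index_mul_card
    rw [hn, hNX] at this
    rw [n5, relIndex_top_right]
    omega
  have h3 : Nat.card (Sylow 19 G) = 3060 := (n19_top hN hy).symm.trans h0
  have hi : (C1 y).relIndex (NX y) = 6 := by
    have := ((C1 y).subgroupOf (NX y)).index_mul_card
    rw [Nat.card_congr (subgroupOfEquivOfLe (C1_le_NX y)).toEquiv, h2, hNX] at this
    rw [relIndex]
    omega
  obtain ⟨Y0, hY0⟩ := Sylow.exists_subgroup_card_pow_prime
    (G := C1 y) 2 (n := 4) (h2 ▸ by norm_num)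
  set Y := Y0.map (C1 y).subtype with hY
  have cY : Nat.card Y = 2 ^ 4 := by rw [hY, card_map_of_injective (subtype_injective _), hY0]
  have YC : Y ≤ centralizer ((P : Subgroup G) : Set G) := by
    rw [hP]
    exact (map_subtype_le _).trans (bas_C1 y).le
  obtain ⟨P', h4, h5⟩ := (IsPGroup.of_card cY).exists_fixed_point_of_prime_dvd_card_of_fixed_point
    (Sylow 19 G) (h3 ▸ by norm_num)
    ((Y.sylow_mem_fixedPoints_iff (P := P)).2 (YC.trans (centralizer_le_normalizer _)))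
  replace h4 : Y ≤ normalizer ((P' : Subgroup G) : Set G) := Y.sylow_mem_fixedPoints_iff.1 h4
  have cP : ∀ R : Sylow 19 G, Nat.card (R : Subgroup G) = 19 := fun R => by
    obtain ⟨_, _, _, -, -, -, -, -, -, e, -⟩ := prime_sylow_data (p := 19) h.nab (m := 2643840) hn
      (by norm_num) R
    exact e
  obtain ⟨y0, y1, y2⟩ : ∃ y : Y, (y : G) ∈ centralizer ((P' : Subgroup G) : Set G) ∧ y ≠ 1 := by
    by_contra! r
    have := isCyclic_of_prime_card (cP P')
    have h6 := card_dvd_of_injective ((P' : Subgroup G).normalizerMonoidHom.comp (inclusion h4))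
      ((injective_iff_map_eq_one _).2 fun y hy => r y (by
        have : inclusion h4 y ∈ (P' : Subgroup G).normalizerMonoidHom.ker := hy
        rwa [normalizerMonoidHom_ker] at this))
    rw [IsCyclic.card_mulAut, cY, cP, Nat.totient_prime Fact.out] at h6
    norm_num at h6
  set C := centralizer ({(y0 : G)} : Set G) with hC
  have k1 : (P : Subgroup G) ≤ C := fun u hu => mem_centralizer_singleton_iff.2 (YC y0.2 u hu)
  have k2 : (P' : Subgroup G) ≤ C := fun u hu => mem_centralizer_singleton_iff.2 (y1 u hu)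
  have yC : y ∈ C := k1 (hP ▸ mem_zpowers y)
  obtain ⟨m, hm⟩ : 19 ∣ Nat.card C := cP P ▸ card_dvd_of_le k1
  have k3 : Nat.card C ∣ 50232960 := hn ▸ card_subgroup_dvd_card C
  have k4 : m ∣ 2643840 := Nat.dvd_of_mul_dvd_mul_left (by norm_num : 0 < 19) (by rw [← hm]; exact k3)
  have k5 : ¬ 19 ∣ m := fun r => by have := r.trans k4; norm_num at this
  obtain ⟨L, _, T, _, _, f, _, t1, ⟨f1, f2, -⟩, ⟨u, t2⟩, t3, t4, -⟩ := Math.DegR.red (p := 19) hm k5
    (fun d hd => Math.Nse.hq_of (p := 19) (m := 2643840) (B := 1626) (by norm_num) (by decide +kernel) d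
      (Nat.divisors_subset_of_dvd (by norm_num) k4 hd))
    (fun r => h5 (Sylow.subtype_injective (hP := k1) (hQ := k2)
      ((Nat.card_eq_one_iff_unique.1 r).1.elim _ _)))
  have k6 : ¬ 19 ∣ Nat.card f.ker * L.index := fun r => k5 (by
    rw [t2, hm, mul_assoc] at t3
    rw [← Nat.eq_of_mul_eq_mul_left (by norm_num) t3]
    exact r.mul_left _)
  have p19 : Nat.Prime 19 := Fact.out
  have oy : orderOf (⟨y, yC⟩ : C) = 19 := by rw [← hy, orderOf_mk]
  have yL : (⟨y, yC⟩ : C) ∈ L := by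
    have c1 : Nat.Coprime (orderOf (⟨y, yC⟩ : C)) L.index := by
      rw [oy]; exact (p19.coprime_iff_not_dvd).2 fun r => k6 (r.mul_left _)
    obtain ⟨j, hj⟩ := exists_pow_eq_self_of_coprime c1.symm
    exact hj ▸ L.pow_mem (L.pow_index_mem _) j
  set y' : L := ⟨⟨y, yC⟩, yL⟩ with hy'
  have oy' : orderOf y' = 19 := by rw [← oy, hy', orderOf_mk]
  have kz : ∀ z ∈ f.ker, z ^ 19 = 1 → z = 1 := fun z hz r => by
    rcases (Nat.dvd_prime p19).1 (orderOf_dvd_of_pow_eq_one r) with e | e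
    · exact orderOf_eq_one_iff.1 e
    · exact absurd ((e ▸ orderOf_dvd_natCard _ hz).mul_right _) k6
  have y19 : y' ^ 19 = 1 := oy' ▸ pow_orderOf_eq_one y'
  have ofy : orderOf (f y') = 19 := orderOf_eq_prime (by rw [← map_pow, y19, map_one]) fun r => by
    rw [kz y' r y19, orderOf_one] at oy'
    norm_num at oy'
  have t5 : Nat.card T ∣ 50232960 := (Dvd.intro _ t3).trans k3
  have t6 := sieve19T t1 t5 ofy (n19_idx ofy fun t ht => by
    obtain ⟨l, rfl⟩ := f1 t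
    obtain ⟨i, hi'⟩ := (mem_normalizer_iff.1 ht (f y')).1 (mem_zpowers _)
    have z1 : l * y' * l⁻¹ * (y' ^ i)⁻¹ ∈ f.ker := by
      simp only [MonoidHom.mem_ker, map_mul, map_inv, map_zpow]
      rw [← show f y' ^ i = _ from hi', mul_inv_cancel]
    have z2 : l * y' * l⁻¹ = y' ^ i := by
      refine mul_inv_eq_one.1 (kz _ z1 ?_)
      have cm : Commute (l * y' * l⁻¹ * (y' ^ i)⁻¹) (y' ^ i) := (mem_center_iff.1 (f2 z1) _).symm
      have := cm.mul_pow 19
      rwa [inv_mul_cancel_right, conj_pow, y19, ← zpow_natCast (y' ^ i), ← zpow_mul, mul_comm i,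
        zpow_mul, zpow_natCast, y19, one_zpow, mul_one, mul_one, mul_inv_cancel, eq_comm] at this
    have z3 : ((l : C) : G) ∈ NX y := bas_NX ⟨i, (congrArg (fun w : L => ((w : C) : G)) z2).symm⟩
    have : ((C1 y).subgroupOf (NX y)).Normal :=
      (normal_subgroupOf_iff_le_normalizer (C1_le_NX y)).2 (NX_le_NN_C1 y)
    have z4 : ((l : C) : G) ^ 6 ∈ C1 y := by
      have := ((C1 y).subgroupOf (NX y)).pow_index_mem ⟨_, z3⟩
      rw [show ((C1 y).subgroupOf (NX y)).index = 6 from hi] at this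
      exact this
    have z5 : l ^ 6 * y' = y' * l ^ 6 :=
      Subtype.ext (Subtype.ext (mem_centralizer_singleton_iff.1 z4))
    rw [mem_centralizer_singleton_iff, ← map_pow, ← map_mul, z5, map_mul])
  rw [n19_top (fun r => by have := r.trans t5; norm_num at this) ofy, t4, ← n5_eq_card hN hy yC,
    ← h0] at t6
  have t7 := Lp_eq hN hy yC le_top t6
  have t8 : (Lp 19 (⊤ : Subgroup G)).Normal :=
    normalizer_eq_top_iff.1 (eq_top_iff.2 (le_normalizer.trans (NN_le_NN_Lp ⊤)))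
  have t9 : C = ⊤ := by
    rcases t8.eq_bot_or_eq_top with e | e
    · have := mem_bot.1 (e.le (mem_Lp (mem_top y) hy))
      rw [this, orderOf_one] at hy
      norm_num at hy
    · exact eq_top_iff.2 ((e.symm.trans t7).le.trans (Lp_le C))
  have t10 : (y0 : G) ∈ center G := mem_center_iff.2 fun g =>
    mem_centralizer_singleton_iff.1 (t9.ge (mem_top g))
  rcases (inferInstance : (center G).Normal).eq_bot_or_eq_top with e | e
  · exact y2 (Subtype.ext (mem_bot.1 (e.le t10)))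
  · exact h.nab ⟨⟨fun a b => (mem_center_iff.1 (e.ge (mem_top b)) a)⟩⟩

/-- Refine `A0` at `q = 19` by `d % 19 ∈ {1,18,9,10}` (`n19`) and at `q = 5` by `e₅ ∈ {2,4}`: tested,
`primeKill B n 17 A [(2,7),(3,5),(19,1),(5,1)]` leaves `(20520,16,9)` and `(369360,8,1)`. -/
theorem H0.n17 (h : H0 G) {y : G} (hy : orderOf y = 17) :
    (Nat.card (C1 y) = 17 ∧ Nat.card (NX y) = 136) ∨
      (Nat.card (C1 y) = 153 ∧ Nat.card (NX y) = 2448) := by
  have := h.simple
  have : Fact (Nat.Prime 17) := ⟨by norm_num⟩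
  have : Fact (Nat.Prime 19) := ⟨by norm_num⟩
  obtain ⟨P, hP⟩ := n19_syl (h.nsq (.inr (.inl rfl))) hy
  obtain ⟨x, hx⟩ := exists_prime_orderOf_dvd_card' (G := G) 19 (by rw [h.card]; norm_num)
  obtain ⟨Q, hQ⟩ := n19_syl (h.nsq (.inr (.inr rfl))) hx
  obtain ⟨_, e, c, -, -, -, -, -, -, e3, e1, e2, -, e4⟩ := prime_sylow_data (p := 19) h.nab
    (m := 2643840) h.card (by norm_num) Q
  obtain ⟨x1, x2⟩ := h.n19 hx
  rw [bas_C1, ← hQ] at x1
  rw [hQ] at e1
  obtain rfl : c = 1 := by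
    have := x1.symm.trans e2
    omega
  obtain rfl : e = 9 := by
    have := x2.symm.trans e1
    omega
  have hA : Admits G (A1 19 9) := n19_ref (admits_A0 h.nab) (by norm_num) Q e3 e4 (by omega)
    (by omega) fun _ => id
  have hc := primeKill2_le kC
  rw [← h.card] at hc
  obtain ⟨_, e, c, k1, -, -, -, -, -, -, -, -, k2, k3, -⟩ := primeKill_sound h.nab hA hc P
  rw [hP] at k2 k3
  rw [bas_C1]
  simp only [Bool.or_eq_true, Bool.and_eq_true, beq_iff_eq] at k1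
  rcases k1 with ⟨rfl, rfl⟩ | ⟨rfl, rfl⟩
  exacts [.inl ⟨k3, k2⟩, .inr ⟨k3, k2⟩]

/-- `|H| = 17 m`, `m ∣ 155520`.  If `n5 y H ≠ 1` (`n5_eq_card`), `Math.DegR.red` (no prime power dividing
155520 is `≡ 1 mod 17`, `Math.Nse.hq_of`) gives a simple `T` with the same number of Sylow 17-subgroups;
tested: for `n = 2^a 3^b 5^c 17`, `primeKill (sqrt n + 1) n 17 A0 [(2,a),(3,b),(5,1)]` leaves only
`k = 18, 120`. -/
theorem sec17 (hN : ¬ 17 ^ 2 ∣ Nat.card G) {y : G} (hy : orderOf y = 17) {H : Subgroup G}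
    (hH : y ∈ H) (h1 : Nat.card H ∣ 17 * 155520) : n5 y H = 1 ∨ n5 y H = 18 ∨ n5 y H = 120 := by
  have : Fact (Nat.Prime 17) := ⟨by norm_num⟩
  rw [n5_eq_card hN hy hH, or_iff_not_imp_left]
  intro h0
  obtain ⟨m, hm⟩ : 17 ∣ Nat.card H := hy ▸ orderOf_dvd_natCard H hH
  have k4 : m ∣ 155520 := Nat.dvd_of_mul_dvd_mul_left (by norm_num : 0 < 17) (by rw [← hm]; exact h1)
  obtain ⟨L, _, T, _, _, f, _, t1, -, ⟨u, t2⟩, t3, t4, -⟩ := Math.DegR.red (p := 17) hm
    (fun r => by have := r.trans k4; norm_num at this)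
    (fun d hd => Math.Nse.hq_of (p := 17) (m := 155520) (B := 395) (by norm_num) (by decide +kernel) d
      (Nat.divisors_subset_of_dvd (by norm_num) k4 hd)) h0
  have h2 : u ∣ 2 ^ 7 * 3 ^ 5 * 5 ^ 1 * 1 := Nat.dvd_of_mul_dvd_mul_left (by norm_num : 0 < 17)
    (by rw [← t2]; exact (Dvd.intro _ t3).trans h1)
  obtain ⟨a, ha, b, hb, c, hc, z, hz, rfl⟩ := n19_split h2
  rw [Nat.dvd_one.1 hz, mul_one] at t2
  have h3 := kD a ha b hb c hc
  rw [cD, frc_eq, frc_eq, nD, ← t2] at h3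
  obtain ⟨R⟩ : Nonempty (Sylow 17 T) := inferInstance
  obtain ⟨k, e, _, k1, -, -, -, -, -, -, k2, -⟩ :=
    primeKill_sound t1 (admits_A0 t1) (primeKill2_le h3) R
  rw [← t4, k2]
  simpa using k1

end Cfsg.Agent.J3O
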