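import Cfsg.Agent.Small.Sieve2
import Cfsg.Agent.Small.DegMod

/-! S3228: the kernel computations for the sieve at the primes 19 and 17. -/

set_option autoImplicit false
set_option Elab.async false

namespace Cfsg.Agent.J3O.N19K

open Cfsg.Agent.Small Cfsg.Agent.Small.Sieve

def sq (n : ℕ) : ℕ → ℕ → ℕ
  | 0, x => x + 1
  | f + 1, x => sq n f ((x + n / x) / 2)

def R (q e d : ℕ) : Bool := d % q == 1 || d % q == q - 1 || d % q == e || d % q == q - e

def A1 (q1 e1 : ℕ) : ℕ → ℕ → ℕ → Bool := fun q b d => A0 q b d && (!(q == q1) || R q1 e1 d)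

def nT (a b c d : ℕ) : ℕ := 19 * (2 ^ a * 3 ^ b * 5 ^ c * 17 ^ d)

def nD (a b c : ℕ) : ℕ := 17 * (2 ^ a * 3 ^ b * 5 ^ c)

noncomputable def cT (a b c d : ℕ) : Bool := frc (nT a b c d) fun n => frc (sq n 14 7088) fun B =>
  primeKill2 B n 19 A0 [(2, a), (3, b), (5, 1), (17, 1)]
    fun k e _ => !(6 % e == 0) || Nat.ble 3060 k

noncomputable def cD (a b c : ℕ) : Bool := frc (nD a b c) fun n => frc (sq n 14 1700) fun B =>
  primeKill2 B n 17 A0 [(2, a), (3, b), (5, 1)] fun k _ _ => k == 18 || k == 120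

theorem kA : primeKill2 7088 50232960 17 A0 [(2, 7), (3, 5), (19, 1), (5, 1)]
    (fun _ e _ => e == 8 || e == 16) = true := by
  decide +kernel

theorem kB : primeKill2 7088 50232960 19 (A1 17 8) [(17, 1), (5, 1)]
    (fun _ e c => e == 9 && c == 1 || e == 6 && c == 144) = true := by
  decide +kernel

theorem kC : primeKill2 7088 50232960 17 (A1 19 9) [(2, 7), (3, 5), (19, 1), (5, 1)]
    (fun _ e c => e == 8 && c == 1 || e == 16 && c == 9) = true := by
  decide +kernel

end Cfsg.Agent.J3O.N19K
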