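import Cfsg.Agent.Math.Ext3
import Cfsg.Agent.Math.Kit

/-! S3228: the searches in the principal 5-block. -/

set_option autoImplicit false
set_option Elab.async false

namespace Cfsg.Agent.J3O

open Cfsg.Agent.Math Cfsg.Agent.Small Cfsg.Agent.Small.Sieve

attribute [local irreducible] dsA dsS dsY vt vi vr imp divs opts

def dvs : List ℕ := [6885, 6840, 6528, 6480, 6460, 6156, 6120, 6080, 5814, 5760, 5508, 5472, 5440, 5184, 5168, 5130,
  4896, 4860, 4845, 4617, 4590, 4560, 4320, 4131, 4104, 4080, 3888, 3876, 3672, 3648, 3456,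
  3420, 3264, 3240, 3230, 3078, 3060, 3040, 2907, 2880, 2754, 2736, 2720, 2592, 2584, 2565,
  2448, 2432, 2430, 2295, 2280, 2176, 2160, 2052, 2040, 1944, 1938, 1920, 1836, 1824, 1728,
  1710, 1632, 1620, 1615, 1539, 1530, 1520, 1440, 1377, 1368, 1360, 1296, 1292, 1224, 1216,
  1215, 1152, 1140, 1088, 1080, 1026, 1020, 972, 969, 960, 918, 912, 864, 855, 816, 810, 765,
  760, 720, 684, 680, 648, 646, 640, 612, 608, 576, 570, 544, 540, 513, 510, 486, 480, 459, 456,
  432, 408, 405, 384, 380, 360, 342, 340, 324, 323, 320, 306, 304, 288, 285, 272, 270, 255, 243,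
  240, 228, 216, 204, 192, 190, 180, 171, 170, 162, 160, 153, 152, 144, 136, 135, 128, 120, 114,
  108, 102, 96, 95, 90, 85, 81, 80, 76, 72, 68, 64, 60, 57, 54, 51, 48, 45, 40, 38, 36, 34, 32,
  30, 27, 24, 20, 19, 18, 17, 16, 15, 12, 10, 9, 8, 6, 5, 4, 3, 2, 1]

def bts : List (ℕ × ℕ) := [(2, 7), (3, 5), (5, 1), (17, 1), (19, 1)]

def qs : List ℕ := [5, 17, 19]

def dall : List ℕ := dvs.flatMap fun d => [d, 50232960 / d]

theorem divs_eq : divs 50232960 7088 = dall := by decide +kernel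

theorem hdvs : Dvs 50232960 dvs := fun d h1 h2 => by
  have h3 := mem_divs h1 (by norm_num) (show 50232960 ≤ 7088 * 7088 by norm_num)
  have h4 : (dall.all fun d => Nat.blt 50232960 (d * d) || dvs.any (Nat.beq d)) = true := by
    decide +kernel
  have h5 := List.all_eq_true.1 h4 d (divs_eq ▸ h3)
  simp only [Bool.or_eq_true, Nat.blt_eq, List.any_eq_true, Nat.beq_eq] at h5
  obtain ⟨a, h6, rfl⟩ := h5.resolve_left (by omega)
  exact h6

theorem hbts : Bts 50232960 bts := by
  intro q hq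
  simp only [bts, List.mem_cons, List.not_mem_nil, or_false] at hq
  rcases hq with rfl | rfl | rfl | rfl | rfl <;> norm_num

theorem hqs : Qs 50232960 qs := by
  intro q hq
  simp only [qs, List.mem_cons, List.not_mem_nil, or_false] at hq
  rcases hq with rfl | rfl | rfl <;> norm_num

def X19 (d : ℕ) : Bool := okd 19 9 (293760 * 9) d

def X17 (d : ℕ) : Bool := X19 d && okd 17 8 (369360 * 8) d

def A17 (q b d : ℕ) : Bool := A0 q b d && (!(q == 17) || (d % 17 == 1 || d % 17 == 16))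

/-- every row for an involution whose centraliser has an order satisfying `P` satisfies `F` -/
noncomputable def rw5 (e c : ℕ) (P : ℕ → Bool) (F : ℕ → List (ℤ × ℤ) → Bool) (l : List ℤ) : Bool :=
  dall.all fun h => imp (50232960 / h ∣ 155520 ∧ 4 ∣ 50232960 / h ∧ (2 ∣ c ∨ 5 ∣ h) ∧
    P (50232960 / h) = true)
    (vt 50232960 h 5 e c 0 qs (fun _ _ => true) [] (F (50232960 / h)) l)

noncomputable def kill (b e c : ℕ) (l : List ℤ) : Bool :=
  bif c == 48 then rw5 e c (fun C => C % 5 == 0) (fun _ _ => false) l ||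
    rw5 e c (fun C => Nat.ble C b) (fun _ _ => false) l
  else bif c == 8 then e == 4 && rw5 e c (fun C => C % 160 == 0 && C / 160 % 5 == 1) (fun _ _ => false) l
  else bif c == 3 then e == 4 &&
    (rw5 e c (fun C => C % 128 == 0) (fun C w => decide (5 * (C * C : ℕ) < 3 * qx 50232960 w)) l ||
      rw5 e c (fun _ => true) (fun _ w => qx 50232960 w == 0) l)
  else rw5 e c (fun C => C % 128 == 0) (fun _ _ => false) l

/-- the surviving cases -/
noncomputable def ok5 (e c : ℕ) (l : List ℤ) : Bool :=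
  bif e == 2 && c == 6 then rw5 2 6 (fun C => C % 128 == 0) (fun C _ => C == 1920) l
  else bif e == 2 && c == 96 then rw5 2 96 (fun _ => true) (fun C w => !(qx 50232960 w == 0) &&
    (!(C % 5 == 0) || (C % 32 == 0 && !(C % 81 == 0)))) l
  else e == 4 && c == 108

theorem chk1 : ((opts 7088 50232960 5).all fun o => imp (¬ 17 ∣ o.2.2 ∧ ¬ 19 ∣ o.2.2)
    (dsA dvs bts 50232960 5 o X17 19 9 fun l => ok5 o.2.1 o.2.2 l ||
      (o.2.1 == 4 && l.isPerm [76, 76, 816, -969]) || kill 5011 o.2.1 o.2.2 l)) = true := by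
  decide +kernel

theorem chk9 : ((opts 7088 50232960 5).all fun o => imp (¬ 17 ∣ o.2.2 ∧ ¬ 19 ∣ o.2.2)
    (dsA dvs bts 50232960 5 o X19 19 9 fun l => !sub 17 (A17 17 1) l 1 || ok5 o.2.1 o.2.2 l ||
      kill 2880 o.2.1 o.2.2 l)) = true := by
  decide +kernel

end Cfsg.Agent.J3O
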