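import Cfsg.Agent.J3O.Bas
import Cfsg.Agent.Math.Ext3
import Cfsg.Agent.PLocal.Amb

/-! S3228: involutions in the cases `c = 3` and `c = 8`. -/

set_option autoImplicit false
set_option linter.unusedSectionVars false

namespace Cfsg.Agent.J3O

open Subgroup

variable {G : Type*} [Group G] [Finite G]

open Cfsg.Agent.Math Cfsg.Agent.Char Cfsg.Agent.Char.SelfC Cfsg.Agent.Char.Euclid



variable [Fact (Nat.Prime 5)] {x : G}

theorem sm_cardK (D : BD 5 x) : Nat.card (K5 x) = D.c := by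
  have := (card_C1 D.nsq D.ox).symm.trans D.card_C
  omega

theorem sm_cent (D : BD 5 x) (hc : D.c = 3) (he : D.e = 4) {u : G} (hu : u * x * u⁻¹ = x⁻¹) :
    u ∈ CC (K5 x) := by
  have x5 : x ^ 5 = 1 := D.ox ▸ pow_orderOf_eq_one x
  have sq : ∀ n ∈ NX x, n ^ 2 ∈ CC (K5 x) := fun n hn => mem_centralizer_iff.2 fun k hk => by
    have : Fact (Nat.Prime 3) := ⟨Nat.prime_three⟩
    have h3 := (sm_cardK D).trans hc
    have := isCyclic_of_prime_card h3
    have e := pow_card_eq_one' (x := (K5 x).normalizerMonoidHom ⟨n, NX_le_NN_K5 x hn⟩)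
    rw [IsCyclic.card_mulAut, h3, show Nat.totient 3 = 2 by decide, ← map_pow] at e
    exact (mul_inv_eq_iff_eq_mul.1 (congrArg Subtype.val (DFunLike.congr_fun e ⟨k, hk⟩))).symm
  have hC : C1 x ≤ CC (K5 x) := fun c h => by
    have e : c ^ 15 = 1 := by
      have := congrArg Subtype.val (pow_card_eq_one' (x := (⟨c, h⟩ : C1 x)))
      rwa [D.card_C, hc] at this
    have := pow_mem (sq c (C1_le_NX x h)) 8
    rwa [← pow_mul, show 2 * 8 = 15 + 1 from rfl, pow_succ, e, one_mul] at this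
  have key : ∀ a b : G, a * x * a⁻¹ = x⁻¹ → b * x * b⁻¹ = x⁻¹ → a * b ∈ C1 x := fun a b ha hb => by
    rw [mem_centralizer_singleton_iff, ← mul_inv_eq_iff_eq_mul]
    calc _ = a * (b * x * b⁻¹) * a⁻¹ := by group
      _ = x := by rw [hb, ← conj_inv, ha, inv_inv]
  obtain ⟨g, hg, e⟩ : ∃ g ∈ NX x, g ^ 2 * x * (g ^ 2)⁻¹ = x⁻¹ := by
    by_contra! k
    have := D.he
    rw [he, relIndex_eq_two_iff.2 ⟨u, bas_NX (hu ▸ inv_mem (mem_zpowers x)), fun b hb => ?_⟩] at this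
    · omega
    by_cases hb' : b ∈ C1 x
    · refine .inr ⟨hb', fun h => ?_⟩
      rw [mul_mem_cancel_left hb', mem_centralizer_singleton_iff] at h
      rw [h, mul_inv_cancel_right, eq_inv_iff_mul_eq_one] at hu
      exact not_dvd_orderOf hu Nat.prime_five (by omega) D.ox.symm.dvd
    refine .inl ⟨key b u ?_ hu, hb'⟩
    have h1 := (mem_normalizer_iff.1 hb x).1 (mem_zpowers x)
    classical
    rw [mem_zpowers_iff_mem_range_orderOf, D.ox] at h1
    obtain ⟨i, hi, e⟩ := Finset.mem_image.1 h1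
    have e2 : b ^ 2 * x * (b ^ 2)⁻¹ = x ^ (i * i) := by
      rw [pow_mul, e, conj_pow, e, pow_two]; group
    have x4 : x ^ 4 = x⁻¹ := eq_inv_of_mul_eq_one_left (by rw [← pow_succ, x5])
    rw [Finset.mem_range] at hi
    interval_cases i
    · exact absurd (by simpa using e.symm) (Grp.SelfCent.ne_one D.ox)
    · exact absurd (mem_centralizer_singleton_iff.2 (mul_inv_eq_iff_eq_mul.1 (e.symm.trans (pow_one x)))) hb'
    · exact absurd (e2.trans x4) (k b hb)
    · exact absurd (e2.trans (by rw [show 3 * 3 = 5 + 4 from rfl, pow_add, x5, one_mul, x4])) (k b hb)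
    · exact e.symm.trans x4
  exact (mul_mem_cancel_left (sq g hg)).1 (hC (key _ u e hu))

/-- `C1 x` has order 15, `K = K5 x` order 3, normal in `N = NX x` (order 60).  `J = N ⊓ CC K ≥ C1 x` has index `≤ 2` in
`N`, and `N / C1 x` is cyclic of order 4, so every `u` inverting `x` centralises `K` (`u ∈ g² C1 x` where
`g x g⁻¹ = x²`).  If `u v = x y` with involutions `u, v` (`inverts_of_pair`) then `u` inverts `x y`, so `y² = 1`,
`y = 1`.  Two involutions `u, u'` inverting `x` have `u u' = x^i k` inverted by `u`, so `k = 1`: at most 5. -/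
theorem pairs_le5 (D : BD 5 x) (hc : D.c = 3) (he : D.e = 4) {t : G} (ht : t * t = 1) :
    ∑ y ∈ reg 5 x, pairs t t (x * y) ≤ 5 := by
  have one : (1 : G) ∈ reg 5 x := mem_reg.2 ⟨one_mem _, SelfC.not_dvd_orderOf_one⟩
  have mK : ∀ {k}, k ∈ C1 x → ¬ 5 ∣ orderOf k → k ∈ K5 x := fun a b =>
    (mem_K5 D.nsq D.ox).2 ⟨mem_centralizer_singleton_iff.1 a, b⟩
  have K1 : ∀ k ∈ K5 x, k * k = 1 → k = 1 := fun k hk e => by
    have := congrArg Subtype.val (pow_card_eq_one' (x := (⟨k, hk⟩ : K5 x)))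
    rw [sm_cardK D, hc] at this
    rwa [coe_pow, pow_succ, pow_two, e, one_mul] at this
  refine (Finset.sum_eq_single_of_mem (f := fun y => pairs t t (x * y)) 1 one fun y hy y1 =>
    Nat.card_eq_zero.2 (.inl ⟨fun ⟨⟨u, v⟩, h1, h2, h3⟩ => y1 ?_⟩)).trans_le ?_
  · obtain ⟨uu, hu⟩ := inverts_of_pair D.ox ht ht hy h1 h2 h3
    obtain ⟨b, rfl⟩ := isConj_iff.1 h2
    have vv : b * t * b⁻¹ * (b * t * b⁻¹) = 1 := by rw [conj_mul, ht]; simp
    have yK := mK (mem_reg.1 hy).1 (mem_reg.1 hy).2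
    have e : u * (x * y) * u⁻¹ = (x * y)⁻¹ := by
      rw [← show u * _ = x * y from h3, ← mul_assoc, uu, one_mul, mul_inv_rev, inv_eq_of_mul_eq_one_right vv]
    rw [← conj_mul, hu, ← sm_cent D hc he hu y yK, mul_inv_cancel_right,
      ← mem_centralizer_singleton_iff.1 (mem_reg.1 hy).1, mul_inv_rev, mul_right_inj, eq_inv_iff_mul_eq_one] at e
    exact K1 y yK e
  by_cases h0 : pairs t t (x * 1) = 0
  · omega
  obtain ⟨⟨a⟩⟩ := (Nat.card_ne_zero.1 h0)
  obtain ⟨aa, ha⟩ := inverts_of_pair D.ox ht ht one a.2.1 a.2.2.1 a.2.2.2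
  rw [← D.ox, ← Nat.card_zpowers]
  refine Nat.card_le_card_of_injective (fun b => ⟨b.1.1 * a.1.1, ?_⟩) fun b c e => ?_
  · obtain ⟨bb, hb⟩ := inverts_of_pair D.ox ht ht one b.2.1 b.2.2.1 b.2.2.2
    generalize a.1.1 = w at aa ha
    generalize b.1.1 = u at bb hb
    have hC : u * w ∈ C1 x := by
      rw [mem_centralizer_singleton_iff, ← mul_inv_eq_iff_eq_mul]
      calc _ = u * (w * x * w⁻¹) * u⁻¹ := by group
        _ = x := by rw [ha, ← conj_inv, hb, inv_inv]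
    have e : u * (u * w) * u⁻¹ = (u * w)⁻¹ := by
      rw [← mul_assoc, bb, one_mul, mul_inv_rev, inv_eq_of_mul_eq_one_right aa]
    generalize u * w = c at hC e
    have e15 : (c ^ 5) ^ 3 = 1 := by
      have := congrArg Subtype.val (pow_card_eq_one' (x := (⟨c, hC⟩ : C1 x)))
      rwa [D.card_C, hc, coe_pow, pow_mul] at this
    have cK := mK (pow_mem hC 5) fun k => absurd (k.trans (orderOf_dvd_of_pow_eq_one e15)) (by omega)
    have e5 := K1 _ cK (by
      rw [← eq_inv_iff_mul_eq_one, ← inv_pow, ← e, conj_pow, ← sm_cent D hc he hb _ cK, mul_inv_cancel_right])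
    rcases (Nat.dvd_prime Nat.prime_five).1 (orderOf_dvd_of_pow_eq_one e5) with k | k
    · rw [orderOf_eq_one_iff.1 k]; exact one_mem _
    · obtain ⟨l, hl, k1⟩ := bas_conj D.nsq D.ox (H := C1 x) (mem_centralizer_singleton_iff.2 rfl) hC k
      have := (bas_C1 x).le hl _ k1
      rwa [show c = l * c * l⁻¹ from mul_left_cancel (a := l) (by rw [← this]; group)]
  · have h1 : b.1.1 = c.1.1 := mul_right_cancel (congrArg Subtype.val e)
    have h2 := b.2.2.2.trans c.2.2.2.symm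
    rw [h1, mul_left_cancel_iff] at h2
    exact Subtype.ext (Prod.ext h1 h2)

/-- `u * (u x) = x` and `u x` is conjugate to `u` by a power of `x` -/
theorem pairs_pos (hx : orderOf x = 5) {u : G} (hu : u * u = 1) (h : u * x * u⁻¹ = x⁻¹) :
    0 < ∑ y ∈ reg 5 x, pairs u u (x * y) := by
  refine lt_of_lt_of_le ?_ (Finset.single_le_sum (f := fun y => pairs u u (x * y)) (fun _ _ => Nat.zero_le _)
    (a := 1) (mem_reg.2 ⟨one_mem _, SelfC.not_dvd_orderOf_one⟩))
  have x5 : x ^ 5 = 1 := hx ▸ pow_orderOf_eq_one x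
  refine Nat.card_pos_iff.2 ⟨⟨⟨(u, u * x), IsConj.refl u, isConj_iff.2 ⟨x ^ 2, ?_⟩, ?_⟩⟩, inferInstance⟩
  · have e : u⁻¹ * x ^ 2 * u = (x ^ 2)⁻¹ := by
      rw [← inv_pow, ← h, conj_pow, inv_eq_of_mul_eq_one_right hu]
    calc _ = u * (u⁻¹ * x ^ 2 * u) * (x ^ 2)⁻¹ := by group
      _ = u * x * (x ^ 5)⁻¹ := by rw [e]; group
      _ = _ := by rw [x5, inv_one, mul_one]
  · rw [← mul_assoc, hu, one_mul, mul_one]

/-- `inverts_of_pair` -/
theorem ex_inv (hx : orderOf x = 5) {t : G} (ht : t * t = 1)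
    (h : ∑ y ∈ reg 5 x, pairs t t (x * y) ≠ 0) : ∃ s, IsConj t s ∧ s * x * s⁻¹ = x⁻¹ := by
  obtain ⟨y, hy, k⟩ := Finset.exists_ne_zero_of_sum_ne_zero h
  obtain ⟨⟨a⟩⟩ := Nat.card_ne_zero.1 k
  exact ⟨_, a.2.1, (inverts_of_pair hx ht ht hy a.2.1 a.2.2.1 a.2.2.2).2⟩

/-- `K5 x` (order 8) is normal in `N = NX x` (order 160); an involution `t ∈ K5 x` central in a Sylow 2-subgroup `R` of
`N` is central in `N = R ⊔ zpowers x`; `card_eq_n5`, `n5_mod`. -/
theorem ex_c8 (D : BD 5 x) (hc : D.c = 8) (he : D.e = 4) :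
    ∃ t : G, orderOf t = 2 ∧ ∃ n, n % 5 = 1 ∧ Nat.card (C1 t) = 160 * n := by
  have : Fact (Nat.Prime 2) := ⟨Nat.prime_two⟩
  have hK := (sm_cardK D).trans hc
  have hN : Nat.card (NX x) = 160 := by
    rw [← PLocal.card_mul_relIndex_of_le (C1_le_NX x), D.he, D.card_C, hc, he]
  obtain ⟨R, hR⟩ := Sylow.exists_subgroup_card_pow_prime (G := NX x) 2 (n := 5) (by rw [hN]; omega)
  rw [← card_subtype] at hR
  have RN : R.map (NX x).subtype ≤ NX x := map_subtype_le R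
  generalize R.map (NX x).subtype = R at hR RN
  have pK : IsPGroup 2 (K5 x) := IsPGroup.of_card (n := 3) hK
  have h1 := PLocal.Amb.inf_centralizer_ne_bot (IsPGroup.of_card hR) pK (RN.trans (NX_le_NN_K5 x))
    fun e => by simp [e] at hK
  obtain ⟨k, hk, e⟩ := (pK.to_le (inf_le_left (b := CC R))).nontrivial_iff_card.1 ((nontrivial_iff_ne_bot _).2 h1)
  obtain ⟨t, ht⟩ := exists_prime_orderOf_dvd_card' 2 (e ▸ dvd_pow_self 2 hk.ne')
  have xt : x ∈ C1 (t : G) := mem_centralizer_singleton_iff.2 ((mem_K5 D.nsq D.ox).1 t.2.1).1.symm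
  refine ⟨t, (orderOf_coe t).trans ht, _, n5_mod D.nsq D.ox xt, ?_⟩
  have h2 : 32 ∣ Nat.card ↥(C1 (t : G) ⊓ NX x) :=
    hR.symm.dvd.trans (card_dvd_of_le (le_inf (fun r hr => mem_centralizer_singleton_iff.2 (t.2.2 r hr)) RN))
  have h3 : 5 ∣ Nat.card ↥(C1 (t : G) ⊓ NX x) :=
    D.ox ▸ orderOf_dvd_natCard _ (mem_inf.2 ⟨xt, le_normalizer (mem_zpowers x)⟩)
  rw [card_eq_n5 x, mul_comm, Nat.dvd_antisymm ((card_dvd_of_le inf_le_right).trans hN.dvd)
    ((show Nat.Coprime 32 5 by decide).mul_dvd_of_dvd_of_dvd h2 h3)]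

end Cfsg.Agent.J3O
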